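import Cfsg.Agent.AltNineCube.Moments

/-!
# Only one decomposition carries a configuration
-/

set_option autoImplicit false
set_option maxRecDepth 20000

namespace CfsgLib.AltNineCube

open CfsgLib.TIThree.Rows

/-- The nine lists separately. -/
def st (n : Fin 9) : List (List ℤ) := states.getD n []

variable {d x y : ℕ → ℝ}

/-- Expand the moment equations. -/
theorem Config.rows {s : List (List ℤ)} (h : Config s d x y) : ∀ i : Fin 6,
    mom s i d = 0 ∧ mom s i (fun k => d k * x k) = 0 ∧ mom s i (fun k => d k * y k) = 0 ∧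
    mom s i (fun k => d k * (x k * x k)) = (defTab 0 i : ℝ) / 2 ∧
    mom s i (fun k => d k * (x k * y k)) = (defTab 1 i : ℝ) / 2 ∧
    mom s i (fun k => d k * (y k * y k)) = (defTab 2 i : ℝ) / 2 :=
  fun i => ⟨h.m0 i, h.mx i, h.my i, h.mxx i, h.mxy i, h.myy i⟩

theorem kill_eight : ¬ Config (st 8) d x y := by
  intro h
  obtain ⟨a0, ax, -, axx, -, -⟩ := h.rows 0
  obtain ⟨b0, bx, bY, bxx, -, byy⟩ := h.rows 1
  obtain ⟨c0, cx, cY, cxx, -, cyy⟩ := h.rows 2
  simp [mom, st, states, Finset.sum_range_succ, defTab] at *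
  have t1 := triple (h.ne 2) (h.ne 4) (h.ne 7) b0 bx bY bxx byy
  have t2 := triple (h.ne 3) (h.ne 4) (h.ne 7) c0 cx cY cxx cyy
  rw [t1.1, t1.2.1, t2.1, t2.2.1] at ax axx
  have e : d 1 * (x 1 - x 7) = 0 := by linear_combination ax - x 7 * a0
  have e' : x 1 = x 7 := by linarith [(mul_eq_zero.mp e).resolve_left (h.ne 1)]
  rw [e'] at axx
  nlinarith [axx, a0]

theorem kill_seven : ¬ Config (st 7) d x y := by
  intro h
  obtain ⟨a0, ax, -, axx, -, -⟩ := h.rows 0
  obtain ⟨b0, bx, bY, bxx, -, byy⟩ := h.rows 1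
  obtain ⟨c0, cx, cY, cxx, -, cyy⟩ := h.rows 2
  simp [mom, st, states, Finset.sum_range_succ, defTab] at *
  have t1 := triple (h.ne 2) (h.ne 5) (h.ne 8) b0 bx bY bxx byy
  have t2 := triple (h.ne 2) (h.ne 6) (h.ne 8) c0 cx cY cxx cyy
  rw [t1.2.1, t2.2.1] at ax axx
  have e : d 1 * (x 1 - x 8) = 0 := by linear_combination ax - x 8 * a0
  have e' : x 1 = x 8 := by linarith [(mul_eq_zero.mp e).resolve_left (h.ne 1)]
  rw [e'] at axx
  nlinarith [axx, a0]

/-- Equal abscissae for two opposite points of the last two rows. -/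
theorem eq_of_two {w v X Y p q : ℝ} (hw : w ≠ 0) (hv : v ≠ 0)
    (h1 : (6 * X ^ 2 - 2 * 3 * (X * Y) + 3 * Y ^ 2) * (w * v) = 9 * p)
    (h2 : (9 / 2 * X ^ 2 - 2 * (3 / 2) * (X * Y) + 3 / 2 * Y ^ 2) * (w * v) = 9 / 2 * q)
    (hpq : p = q) : X = 0 := by
  have : X ^ 2 * (w * v) = 0 := by subst hpq; linear_combination (-1 / 3 : ℝ) * h1 + (2 / 3 : ℝ) * h2
  simpa [hw, hv] using this

theorem kill_zero : ¬ Config (st 0) d x y := by
  intro h
  have hone := h.one
  obtain ⟨a0, ax, -, axx, -, -⟩ := h.rows 0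
  obtain ⟨b0, bx, bY, bxx, -, byy⟩ := h.rows 1
  obtain ⟨f0, fx, -, -, -, -⟩ := h.rows 3
  obtain ⟨g0, gx, gY, gxx, gxy, gyy⟩ := h.rows 4
  obtain ⟨k0, kx, kY, kxx, kxy, kyy⟩ := h.rows 5
  simp [mom, st, states, Finset.sum_range_succ, defTab] at *
  have t1 := triple (h.ne 3) (h.ne 5) (h.ne 8) b0 bx bY bxx byy
  have p1 := pair_four (w1 := d 0) (w2 := d 8) (w3 := d 1) (w4 := d 6) (x1 := x 0) (x2 := x 8)
    (x3 := x 1) (x4 := x 6) (y1 := y 0) (y2 := y 8) (y3 := y 1) (y4 := y 6) (a := 3) (b := 3)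
    (c := 6) (h.ne 6) (by linarith) (by linarith) (by linarith) (by linarith) (by linarith)
    (by linarith)
  have p2 := pair_four (w1 := d 0) (w2 := d 8) (w3 := -d 1) (w4 := d 7) (x1 := x 0) (x2 := x 8)
    (x3 := x 1) (x4 := x 7) (y1 := y 0) (y2 := y 8) (y3 := y 1) (y4 := y 7) (a := 3 / 2)
    (b := 3 / 2) (c := 9 / 2) (h.ne 7) (by linarith) (by linarith) (by linarith) (by linarith)
    (by linarith) (by linarith)
  have hu : x 0 - x 8 = 0 := eq_of_two (Y := y 0 - y 8) (h.ne 0) (h.ne 8)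
    (p := d 0 + d 8) (q := d 0 + d 8) (by linear_combination p1) (by linear_combination p2) rfl
  have e0 : x 0 = x 8 := by linarith
  rw [t1.2.1] at ax axx
  rw [e0] at gx kx
  have m1 : d 1 * (x 1 - x 8) = 0 := by
    linear_combination (1 / 2 : ℝ) * ((ax - x 8 * a0) - (kx - x 8 * k0) + (fx - x 8 * f0))
  have e1 : x 1 = x 8 := by linarith [(mul_eq_zero.mp m1).resolve_left (h.ne 1)]
  have m2 : d 2 * (x 2 - x 8) = 0 := by linear_combination ax - x 8 * a0 - m1
  have e2 : x 2 = x 8 := by linarith [(mul_eq_zero.mp m2).resolve_left (h.ne 2)]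
  rw [e1, e2] at axx
  nlinarith [axx, a0]

theorem kill_two : ¬ Config (st 2) d x y := by
  intro h
  obtain ⟨a0, ax, -, axx, -, -⟩ := h.rows 0
  obtain ⟨b0, bx, bY, bxx, -, byy⟩ := h.rows 1
  obtain ⟨g0, gx, gY, gxx, gxy, gyy⟩ := h.rows 4
  obtain ⟨k0, kx, kY, kxx, kxy, kyy⟩ := h.rows 5
  simp [mom, st, states, Finset.sum_range_succ, defTab] at *
  have t1 := triple (h.ne 3) (h.ne 5) (h.ne 8) b0 bx bY bxx byy
  have p1 := pair_four (w1 := d 0) (w2 := d 8) (w3 := d 2) (w4 := d 7) (x1 := x 0) (x2 := x 8)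
    (x3 := x 2) (x4 := x 7) (y1 := y 0) (y2 := y 8) (y3 := y 2) (y4 := y 7) (a := 3) (b := 3)
    (c := 6) (h.ne 7) (by linarith) (by linarith) (by linarith) (by linarith) (by linarith)
    (by linarith)
  have p2 := pair_four (w1 := d 0) (w2 := d 8) (w3 := -d 1) (w4 := -d 2) (x1 := x 0) (x2 := x 8)
    (x3 := x 1) (x4 := x 2) (y1 := y 0) (y2 := y 8) (y3 := y 1) (y4 := y 2) (a := 3 / 2)
    (b := 3 / 2) (c := 9 / 2) (neg_ne_zero.mpr (h.ne 2)) (by linarith) (by linarith) (by linarith)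
    (by linarith) (by linarith) (by linarith)
  have hu : x 0 - x 8 = 0 := eq_of_two (Y := y 0 - y 8) (h.ne 0) (h.ne 8)
    (p := d 0 + d 8) (q := d 0 + d 8) (by linear_combination p1) (by linear_combination p2) rfl
  have e0 : x 0 = x 8 := by linarith
  rw [t1.2.1] at ax axx
  rw [e0] at gx kx
  have m1 : d 1 * (x 1 - x 8) = 0 := by
    linear_combination (1 / 2 : ℝ) * ((ax - x 8 * a0) - (kx - x 8 * k0) - (gx - x 8 * g0))
  have e1 : x 1 = x 8 := by linarith [(mul_eq_zero.mp m1).resolve_left (h.ne 1)]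
  have m2 : d 7 * (x 7 - x 8) = 0 := by linear_combination ax - x 8 * a0 - m1
  have e2 : x 7 = x 8 := by linarith [(mul_eq_zero.mp m2).resolve_left (h.ne 7)]
  rw [e1, e2] at axx
  nlinarith [axx, a0]

theorem kill_four : ¬ Config (st 4) d x y := by
  intro h
  obtain ⟨a0, ax, -, axx, -, -⟩ := h.rows 0
  obtain ⟨b0, bx, bY, bxx, -, byy⟩ := h.rows 1
  obtain ⟨f0, fx, -, -, -, -⟩ := h.rows 3
  obtain ⟨g0, gx, gY, gxx, gxy, gyy⟩ := h.rows 4
  obtain ⟨k0, kx, kY, kxx, kxy, kyy⟩ := h.rows 5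
  simp [mom, st, states, Finset.sum_range_succ, defTab] at *
  have t1 := triple (h.ne 3) (h.ne 5) (h.ne 8) b0 bx bY bxx byy
  have p1 := pair_four (w1 := d 0) (w2 := d 8) (w3 := d 1) (w4 := d 6) (x1 := x 0) (x2 := x 8)
    (x3 := x 1) (x4 := x 6) (y1 := y 0) (y2 := y 8) (y3 := y 1) (y4 := y 6) (a := 3) (b := 3)
    (c := 6) (h.ne 6) (by linarith) (by linarith) (by linarith) (by linarith) (by linarith)
    (by linarith)
  have p2 := pair_four (w1 := d 0) (w2 := d 8) (w3 := -d 1) (w4 := d 7) (x1 := x 0) (x2 := x 8)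
    (x3 := x 1) (x4 := x 7) (y1 := y 0) (y2 := y 8) (y3 := y 1) (y4 := y 7) (a := 3 / 2)
    (b := 3 / 2) (c := 9 / 2) (h.ne 7) (by linarith) (by linarith) (by linarith) (by linarith)
    (by linarith) (by linarith)
  have hu : x 0 - x 8 = 0 := eq_of_two (Y := y 0 - y 8) (h.ne 0) (h.ne 8)
    (p := d 0 + d 8) (q := d 0 + d 8) (by linear_combination p1) (by linear_combination p2) rfl
  have e0 : x 0 = x 8 := by linarith
  rw [t1.2.1] at ax axx
  rw [e0] at gx
  have m1 : d 1 * (x 1 - x 8) = 0 := by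
    linear_combination (1 / 2 : ℝ) * ((gx - x 8 * g0) - (fx - x 8 * f0))
  have e1 : x 1 = x 8 := by linarith [(mul_eq_zero.mp m1).resolve_left (h.ne 1)]
  have m2 : d 2 * (x 2 - x 8) = 0 := by linear_combination ax - x 8 * a0 - m1
  have e2 : x 2 = x 8 := by linarith [(mul_eq_zero.mp m2).resolve_left (h.ne 2)]
  rw [e1, e2] at axx
  nlinarith [axx, a0]

theorem kill_one : ¬ Config (st 1) d x y := by
  intro h
  obtain ⟨b0, bx, bY, bxx, -, byy⟩ := h.rows 1
  obtain ⟨c0, cx, cY, cxx, -, cyy⟩ := h.rows 2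
  obtain ⟨k0, kx, kY, kxx, kxy, kyy⟩ := h.rows 5
  simp [mom, st, states, Finset.sum_range_succ, defTab] at *
  have t1 := triple (h.ne 2) (h.ne 5) (h.ne 6) b0 bx bY bxx byy
  have t2 := triple (h.ne 2) (h.ne 5) (h.ne 7) c0 cx cY cxx cyy
  have ed : d 7 = d 6 := by linarith
  have ex : x 7 = x 6 := by rw [← t2.2.1, t1.2.1]
  have ey : y 7 = y 6 := mul_left_cancel₀ (h.ne 6) (by rw [ed] at cY; linarith)
  have p := pair_four (w1 := d 6) (w2 := d 7) (w3 := d 0) (w4 := d 8) (x1 := x 6) (x2 := x 7)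
    (x3 := x 0) (x4 := x 8) (y1 := y 6) (y2 := y 7) (y3 := y 0) (y4 := y 8) (a := 3 / 2)
    (b := 3 / 2) (c := 9 / 2) (h.ne 8) (by linarith) (by linarith) (by linarith)
    (by linarith) (by linarith) (by linarith)
  rw [ed, ex, ey] at p
  exact h.ne 6 (by linarith)

theorem kill_six : ¬ Config (st 6) d x y := by
  intro h
  obtain ⟨a0, ax, aY, axx, axy, ayy⟩ := h.rows 0
  obtain ⟨b0, bx, bY, bxx, -, byy⟩ := h.rows 1
  obtain ⟨c0, cx, cY, cxx, -, cyy⟩ := h.rows 2
  simp [mom, st, states, Finset.sum_range_succ, defTab] at *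
  have t1 := triple (h.ne 2) (h.ne 7) (h.ne 4) (x1 := x 2) (y1 := y 2) (x2 := x 7) (y2 := y 7) (x3 := x 4) (y3 := y 4) (by linarith)
    (by linarith) (by linarith) (by linarith) (c := 3) (by linarith)
  have t2 := triple (h.ne 2) (h.ne 7) (h.ne 5) (x1 := x 2) (y1 := y 2) (x2 := x 7) (y2 := y 7) (x3 := x 5) (y3 := y 5) (by linarith)
    (by linarith) (by linarith) (by linarith) (c := 3) (by linarith)
  have ed : d 5 = d 4 := by linarith
  have ex : x 5 = x 4 := by rw [← t2.2.1, t1.2.1]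
  have ey : y 5 = y 4 := mul_left_cancel₀ (h.ne 4) (by rw [ed] at cY; linarith)
  have p := pair_four (w1 := d 4) (w2 := d 5) (w3 := d 1) (w4 := d 2) (x1 := x 4) (x2 := x 5)
    (x3 := x 1) (x4 := x 2) (y1 := y 4) (y2 := y 5) (y3 := y 1) (y4 := y 2) (a := 3)
    (b := 0) (c := 3) (h.ne 2) (by linarith) (by linarith) (by linarith)
    (by linarith) (by linarith) (by linarith)
  rw [ed, ex, ey] at p
  exact h.ne 4 (by linarith)

theorem kill_five : ¬ Config (st 5) d x y := by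
  intro h
  obtain ⟨a0, ax, aY, axx, axy, ayy⟩ := h.rows 0
  obtain ⟨b0, bx, bY, bxx, -, byy⟩ := h.rows 1
  obtain ⟨c0, cx, cY, cxx, -, cyy⟩ := h.rows 2
  simp [mom, st, states, Finset.sum_range_succ, defTab] at *
  have t1 := triple (h.ne 1) (h.ne 8) (h.ne 4) (x1 := x 1) (y1 := y 1) (x2 := x 8) (y2 := y 8) (x3 := x 4) (y3 := y 4)
    (by linarith) (by linarith) (by linarith) (by linarith) (c := 3) (by linarith)
  have t2 := triple (h.ne 1) (h.ne 8) (h.ne 5) (x1 := x 1) (y1 := y 1) (x2 := x 8) (y2 := y 8) (x3 := x 5) (y3 := y 5)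
    (by linarith) (by linarith) (by linarith) (by linarith) (c := 3) (by linarith)
  have ed : d 5 = d 4 := by linarith
  have ex : x 5 = x 4 := by rw [← t2.2.1, t1.2.1]
  have ey : y 5 = y 4 := mul_left_cancel₀ (h.ne 4) (by rw [ed] at cY; linarith)
  have p := pair_four (w1 := d 4) (w2 := d 5) (w3 := d 1) (w4 := d 2) (x1 := x 4) (x2 := x 5)
    (x3 := x 1) (x4 := x 2) (y1 := y 4) (y2 := y 5) (y3 := y 1) (y4 := y 2) (a := 3)
    (b := 0) (c := 3) (h.ne 2) (by linarith) (by linarith) (by linarith)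
    (by linarith) (by linarith) (by linarith)
  rw [ed, ex, ey] at p
  exact h.ne 4 (by linarith)


/-- The scalar computation behind the surviving decomposition. -/
theorem degree_two {T M N C h w U V Z1 Z2 : ℝ} (hT : T ≠ 0) (hM : M ≠ 0) (hN : N ≠ 0) (hC : C ≠ 0)
    (eC : C = T + M + N) (e1 : 5 * h ^ 2 * (T * M) = 3 * (T + M))
    (e2 : w ^ 2 * (M * N) = 3 * (M + N))
    (e3 : ((2 * h) ^ 2 + (h - w) ^ 2) * (T * N) = 3 * (T + N))
    (e4 : (Z1 ^ 2 + Z2 ^ 2) * (C * N) = 3 * (C - N))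
    (e5 : (3 * Z1 ^ 2 - 2 * (Z1 * Z2) + Z2 ^ 2) * (C * N) = 3 * (C + N))
    (l1 : C * Z1 = 2 * h * T) (l2 : C * Z2 = h * T + N * w - C * w)
    (q7 : (2 * U ^ 2 - 2 * (U * V) + V ^ 2) * M = 3 * (1 + M))
    (q6 : (2 * (U - 2 * h) ^ 2 - 2 * ((U - 2 * h) * (V - h)) + (V - h) ^ 2) * T = 3 * (1 + T))
    (q9 : (3 * U ^ 2 - 2 * (U * (V - w)) + (V - w) ^ 2) * N = 3 * (1 + N))
    (q1 : (3 * (U - Z1) ^ 2 - 2 * ((U - Z1) * (V - w - Z2)) + (V - w - Z2) ^ 2) * C =
      3 * (1 + C)) : T = 2 := by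
  have hw : h * w * M = 3 := by
    have : (2 * T * N) * (h * w * M - 3) = 0 := by
      linear_combination N * e1 + T * e2 - M * e3
    linarith [(mul_eq_zero.mp this).resolve_left (by simp [hT, hN])]
  have hz : (Z1 ^ 2 - Z1 * Z2) * C = 3 := by
    have : 2 * N * ((Z1 ^ 2 - Z1 * Z2) * C - 3) = 0 := by linear_combination e5 - e4
    linarith [(mul_eq_zero.mp this).resolve_left (by simp [hN])]
  have hz' : 2 * h * T * (h * T + (T + M) * w) = 3 * C := by
    subst eC
    linear_combination (T + M + N) * hz +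
      (-(2 * ((T + M + N) * Z1) - (T + M + N) * Z2) - (2 * h * T - (T + M + N) * Z1)) * l1 +
      (2 * h * T) * l2
  have eA : 5 * M * N = (12 * T - 5 * M) * (T + M) := by
    subst eC
    linear_combination (-5 * M / 3) * hz' + (2 * T / 3) * e1 + (10 * T * (T + M) / 3) * hw
  have eB : (T + M) * M = N * (4 * T - M) := by
    have : 45 * T * N = 9 * ((T + M) * (M + N)) := by
      linear_combination (-5 * T * N) * (h * w * M + 3) * hw + w ^ 2 * (M * N) * e1 +
        3 * (T + M) * e2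
    linear_combination (-1 / 9 : ℝ) * this
  have hTM : T + M ≠ 0 := by
    intro e
    have : N * (5 * T) = 0 := by linear_combination (-1 : ℝ) * eB + (N + M) * e
    simp [hN, hT] at this
  have hM' : M = 3 / 2 * T := by
    have : 16 * T * (T + M) * (3 * T - 2 * M) = 0 := by
      linear_combination (-(4 * T - M)) * eA + 5 * M * (-1 : ℝ) * eB
    have := (mul_eq_zero.mp this).resolve_left (by simp [hT, hTM])
    linarith
  subst hM'
  have hN' : N = 3 / 2 * T := by
    have : T * (N - 3 / 2 * T) = 0 := by linear_combination (-2 / 5 : ℝ) * eB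
    linarith [(mul_eq_zero.mp this).resolve_left hT]
  subst hN'
  have hC' : C = 4 * T := by linarith
  subst hC'
  have hh : h ^ 2 * T = 1 := by
    have : T * (h ^ 2 * T - 1) = 0 := by linear_combination (2 / 15 : ℝ) * e1
    linarith [(mul_eq_zero.mp this).resolve_left hT]
  have hh0 : h ≠ 0 := fun e => by simp [e] at hh
  have hw' : w = 2 * h := by
    have : h * T * (w - 2 * h) = 0 := by linear_combination (2 / 3 : ℝ) * hw - 2 * hh
    linarith [(mul_eq_zero.mp this).resolve_left (by simp [hh0, hT])]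
  subst hw'
  have hZ1 : Z1 = h / 2 := by
    have : T * (Z1 - h / 2) = 0 := by linear_combination (1 / 4 : ℝ) * l1
    linarith [(mul_eq_zero.mp this).resolve_left hT]
  have hZ2 : Z2 = -h := by
    have : T * (Z2 + h) = 0 := by linear_combination (1 / 4 : ℝ) * l2
    linarith [(mul_eq_zero.mp this).resolve_left hT]
  subst hZ1 hZ2
  have hV : V = 3 * U - 2 * h := by
    have : h * T * (V - (3 * U - 2 * h)) = 0 := by
      linear_combination (1 / 2 : ℝ) * q6 - (1 / 3 : ℝ) * q7 - (1 / 2 : ℝ) * hh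
    linarith [(mul_eq_zero.mp this).resolve_left (by simp [hh0, hT])]
  subst hV
  have hU : U = 2 * h := by
    have : h * T * (U - 2 * h) = 0 := by
      linear_combination (1 / 16 : ℝ) * q1 - (1 / 6 : ℝ) * q9 + (5 / 16 : ℝ) * hh
    linarith [(mul_eq_zero.mp this).resolve_left (by simp [hh0, hT])]
  subst hU
  have : 6 * h ^ 2 = 3 := by
    have : T * (6 * h ^ 2 - 3) = 0 := by linear_combination (2 / 3 : ℝ) * q7 + (-4 : ℝ) * hh + 2 * hh
    linarith [(mul_eq_zero.mp this).resolve_left hT]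
  have h2 : h ^ 2 = 1 / 2 := by linarith
  rw [h2] at hh
  linarith

theorem degree_of_three (h : Config (st 3) d x y) : d 6 = 2 := by
  have hone := h.one
  obtain ⟨a0, ax, aY, axx, axy, ayy⟩ := h.rows 0
  obtain ⟨b0, bx, bY, bxx, -, byy⟩ := h.rows 1
  obtain ⟨g0, gx, gY, gxx, gxy, gyy⟩ := h.rows 4
  obtain ⟨k0, kx, kY, kxx, kxy, kyy⟩ := h.rows 5
  simp [mom, st, states, Finset.sum_range_succ, defTab] at *
  obtain ⟨-, ex79, t⟩ := triple (h.ne 2) (h.ne 7) (h.ne 9) b0 bx bY bxx byy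
  obtain ⟨-, -, t79⟩ := triple (h.ne 7) (h.ne 9) (h.ne 2) (x1 := x 7) (y1 := y 7) (x2 := x 9)
    (y2 := y 9) (x3 := x 2) (y3 := y 2) (by linarith) (by linarith) (by linarith) (by linarith)
    (c := 3) (by linarith)
  have p67 := pair_four (w1 := d 6) (w2 := d 7) (w3 := d 1) (w4 := d 9) (x1 := x 6) (x2 := x 7)
    (x3 := x 1) (x4 := x 9) (y1 := y 6) (y2 := y 7) (y3 := y 1) (y4 := y 9) (a := 3) (b := 0)
    (c := 3) (h.ne 9) (by linarith) (by linarith) (by linarith) (by linarith) (by linarith)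
    (by linarith)
  have r67 := pair_four (w1 := d 6) (w2 := d 7) (w3 := d 0) (w4 := d 5) (x1 := x 6) (x2 := x 7)
    (x3 := x 0) (x4 := x 5) (y1 := y 6) (y2 := y 7) (y3 := y 0) (y4 := y 5) (a := 3) (b := 3)
    (c := 6) (h.ne 5) (by linarith) (by linarith) (by linarith) (by linarith) (by linarith)
    (by linarith)
  have p69 := pair_four (w1 := d 6) (w2 := d 9) (w3 := d 1) (w4 := d 7) (x1 := x 6) (x2 := x 9)
    (x3 := x 1) (x4 := x 7) (y1 := y 6) (y2 := y 9) (y3 := y 1) (y4 := y 7) (a := 3) (b := 0)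
    (c := 3) (h.ne 7) (by linarith) (by linarith) (by linarith) (by linarith) (by linarith)
    (by linarith)
  have p19 := pair_four (w1 := d 1) (w2 := d 9) (w3 := d 6) (w4 := d 7) (x1 := x 1) (x2 := x 9)
    (x3 := x 6) (x4 := x 7) (y1 := y 1) (y2 := y 9) (y3 := y 6) (y4 := y 7) (a := 3) (b := 0)
    (c := 3) (h.ne 7) (by linarith) (by linarith) (by linarith) (by linarith) (by linarith)
    (by linarith)
  have s19 := pair_four (w1 := -d 1) (w2 := d 9) (w3 := d 0) (w4 := d 8) (x1 := x 1) (x2 := x 9)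
    (x3 := x 0) (x4 := x 8) (y1 := y 1) (y2 := y 9) (y3 := y 0) (y4 := y 8) (a := 3 / 2)
    (b := 3 / 2) (c := 9 / 2) (h.ne 8) (by linarith) (by linarith) (by linarith) (by linarith)
    (by linarith) (by linarith)
  have r07 := pair_four (w1 := d 0) (w2 := d 7) (w3 := d 6) (w4 := d 5) (x1 := x 0) (x2 := x 7)
    (x3 := x 6) (x4 := x 5) (y1 := y 0) (y2 := y 7) (y3 := y 6) (y4 := y 5) (a := 3) (b := 3)
    (c := 6) (h.ne 5) (by linarith) (by linarith) (by linarith) (by linarith) (by linarith)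
    (by linarith)
  have r06 := pair_four (w1 := d 0) (w2 := d 6) (w3 := d 7) (w4 := d 5) (x1 := x 0) (x2 := x 6)
    (x3 := x 7) (x4 := x 5) (y1 := y 0) (y2 := y 6) (y3 := y 7) (y4 := y 5) (a := 3) (b := 3)
    (c := 6) (h.ne 5) (by linarith) (by linarith) (by linarith) (by linarith) (by linarith)
    (by linarith)
  have s09 := pair_four (w1 := d 0) (w2 := d 9) (w3 := -d 1) (w4 := d 8) (x1 := x 0) (x2 := x 9)
    (x3 := x 1) (x4 := x 8) (y1 := y 0) (y2 := y 9) (y3 := y 1) (y4 := y 8) (a := 3 / 2)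
    (b := 3 / 2) (c := 9 / 2) (h.ne 8) (by linarith) (by linarith) (by linarith) (by linarith)
    (by linarith) (by linarith)
  have s01 := pair_four (w1 := d 0) (w2 := -d 1) (w3 := d 9) (w4 := d 8) (x1 := x 0) (x2 := x 1)
    (x3 := x 9) (x4 := x 8) (y1 := y 0) (y2 := y 1) (y3 := y 9) (y4 := y 8) (a := 3 / 2)
    (b := 3 / 2) (c := 9 / 2) (h.ne 8) (by linarith) (by linarith) (by linarith) (by linarith)
    (by linarith) (by linarith)
  rw [← ex79] at ax axx p69 p19 s19 s09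
  rw [hone] at r07 r06 s09 s01
  have hx67 : x 6 - x 7 = 2 * (y 6 - y 7) := by
    have : (x 6 - x 7) * ((x 6 - x 7) - 2 * (y 6 - y 7)) * (d 6 * d 7) = 0 := by
      linear_combination (1 / 3 : ℝ) * r67 - (1 / 3 : ℝ) * p67
    simp only [mul_eq_zero, h.ne 6, h.ne 7, or_false] at this
    refine this.elim (fun e => ?_) (fun e => by linarith)
    exfalso
    have e6 : x 6 = x 7 := by linarith
    rw [e6] at ax axx
    have e1 : d 1 * (x 1 - x 7) = 0 := by linear_combination ax - x 7 * a0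
    rw [show x 1 = x 7 by linarith [(mul_eq_zero.mp e1).resolve_left (h.ne 1)]] at axx
    nlinarith [axx, a0]
  refine degree_two (T := d 6) (M := d 7) (N := d 9) (C := -d 1) (h := y 6 - y 7)
    (w := y 9 - y 7) (U := x 0 - x 7) (V := y 0 - y 7) (Z1 := x 1 - x 7) (Z2 := y 1 - y 9)
    (h.ne 6) (h.ne 7) (h.ne 9) (neg_ne_zero.mpr (h.ne 1)) (by linarith) ?_ ?_ ?_ ?_ ?_ ?_ ?_ ?_ ?_
    ?_ ?_
  · rw [hx67] at p67; linear_combination (1 / 3 : ℝ) * p67
  · linear_combination t79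
  · rw [hx67] at p69; linear_combination (1 / 3 : ℝ) * p69
  · linear_combination (-1 / 3 : ℝ) * p19
  · linear_combination (2 / 3 : ℝ) * s19
  · linear_combination (-1 : ℝ) * ax + x 7 * a0 + d 6 * hx67
  · linear_combination (-1 : ℝ) * aY + y 7 * a0
  · linear_combination (1 / 3 : ℝ) * r07
  · rw [show x 6 = x 7 + 2 * (y 6 - y 7) by linarith] at r06
    linear_combination (1 / 3 : ℝ) * r06
  · linear_combination (2 / 3 : ℝ) * s09
  · linear_combination (2 / 3 : ℝ) * s01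

/-- Only the fourth list occurs, with a constituent of degree two. -/
theorem analysis {s : List (List ℤ)} (hs : s ∈ states) (h : Config s d x y) :
    s = st 3 ∧ d 6 = 2 := by
  obtain ⟨n, hn, rfl⟩ := List.getElem_of_mem hs
  have e : states[n] = st ⟨n, hn⟩ := (List.getD_eq_getElem _ _ hn).symm
  rw [e] at h ⊢
  have hn' : n < 9 := hn
  interval_cases n
  exacts [absurd h kill_zero, absurd h kill_one, absurd h kill_two, ⟨rfl, degree_of_three h⟩,
    absurd h kill_four, absurd h kill_five, absurd h kill_six, absurd h kill_seven,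
    absurd h kill_eight]

end CfsgLib.AltNineCube
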