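import Cfsg.Agent.AltNineCube.Model

/-!
# Classes of `3^3 : S4` and six virtual characters on the classes meeting the translations
-/

set_option autoImplicit false
set_option maxRecDepth 20000
-- the kernel checks below are large: run them one after the other
set_option Elab.async false

namespace CfsgLib.AltNineCube

open Cfsg

namespace Af

/-- The class of an element. -/
def cls (x : Af) : Fin 14 :=
  Fin.ofNat 14 (tab Data.clsTab x.m (9 * (x.a : ℕ) + 3 * (x.b : ℕ) + (x.c : ℕ)))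

/-- A representative of a class. -/
def rep (c : Fin 14) : Af :=
  ⟨Fin.ofNat 3 (tab Data.repTab c 0), Fin.ofNat 3 (tab Data.repTab c 1),
    Fin.ofNat 3 (tab Data.repTab c 2), Fin.ofNat 24 (tab Data.repTab c 3)⟩

/-- Four generators. -/
def gen : Fin 4 → Af := ![⟨1, 0, 0, 0⟩, ⟨0, 0, 0, 10⟩, ⟨0, 0, 0, 5⟩, ⟨0, 0, 0, 8⟩]

/-- Words for the linear parts. -/
def wordTab : List (List (Fin 4)) :=
  [[], [1, 2, 1, 1], [1, 1, 3], [3, 1], [1, 1, 2, 1], [2], [3, 1, 2], [3, 2, 1], [3], [1, 3, 1],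
    [1], [2, 1, 2], [2, 1, 3, 1], [3, 2], [2, 1], [1, 2], [1, 1], [2, 1, 1], [1, 3], [2, 1, 3],
    [1, 2, 1], [1, 1, 2], [3, 1, 1], [1, 3, 2]]

/-- A word for an element. -/
def word (x : Af) : List (Fin 4) :=
  List.replicate (x.a : ℕ) 0 ++ ([3] ++ List.replicate (x.b : ℕ) 0 ++ [3]) ++
    ([1, 1] ++ List.replicate (x.c : ℕ) 0 ++ [1]) ++ wordTab.getD x.m []

theorem prod_word : ∀ x : Af, ((word x).map gen).prod = x := by decide +kernel

theorem induction_gen {P : Af → Prop} (h1 : P 1) (hmul : ∀ i x, P x → P (gen i * x)) :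
    ∀ x, P x := by
  intro x
  rw [← prod_word x]
  generalize word x = w
  induction w with
  | nil => simpa using h1
  | cons i w ih => rw [List.map_cons, List.prod_cons]; exact hmul i _ ih

theorem cls_conj_gen : ∀ i, ∀ x : Af, cls (gen i * x * (gen i)⁻¹) = cls x := by decide +kernel

theorem cls_conj (g x : Af) : cls (g * x * g⁻¹) = cls x := by
  induction g using induction_gen with
  | h1 => simp
  | hmul i g ih =>
    rw [show gen i * g * x * (gen i * g)⁻¹ = gen i * (g * x * g⁻¹) * (gen i)⁻¹ by group,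
      cls_conj_gen, ih]

theorem cls_eq_of_conj {x y : Af} (h : IsConj x y) : cls x = cls y := by
  obtain ⟨g, rfl⟩ := isConj_iff.mp h
  exact (cls_conj g x).symm

theorem cls_inv : ∀ x : Af, cls x⁻¹ = cls x := by decide +kernel

theorem cls_rep : ∀ c, cls (rep c) = c := by decide +kernel

/-- The class sizes. -/
def size (c : Fin 14) : ℤ := ((Data.sizeTab.getD c 0 : ℕ) : ℤ)

theorem card_fiber : ∀ c, ((Finset.univ.filter fun x : Af => cls x = c).card : ℤ) = size c := by
  decide +kernel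

theorem sum_cls {R : Type*} [CommRing R] (f : Fin 14 → R) :
    ∑ x : Af, f (cls x) = ∑ c, (size c : R) * f c := by
  rw [← Finset.sum_fiberwise Finset.univ cls (fun x => f (cls x))]
  refine Finset.sum_congr rfl fun c _ => ?_
  rw [Finset.sum_congr rfl (fun x hx => by rw [(Finset.mem_filter.mp hx).2] :
    ∀ x ∈ Finset.univ.filter (fun x : Af => cls x = c), f (cls x) = f c),
    Finset.sum_const, nsmul_eq_mul, ← card_fiber]
  simp

/-- The classes whose cyclic groups meet the translations. -/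
def dset : Finset (Fin 14) := {1, 5, 6, 8, 9, 10, 11, 12, 13}

/-- The exponent bringing an element of `dset` into the translations. -/
def expo (x : Af) : ℕ := if (x ^ 4).m = 0 ∧ x ^ 4 ≠ 1 then 4 else 3

theorem expo_spec : ∀ x : Af, cls x ∈ dset → (x ^ expo x).m = 0 ∧ x ^ expo x ≠ 1 := by
  decide +kernel

theorem dset_sq : ∀ x : Af, cls x ∈ dset → x ^ 2 ≠ 1 := by decide +kernel

theorem trans_pow : ∀ x : Af, x.m = 0 → x ^ 3 = 1 := by decide +kernel

theorem trans_cls : ∀ x : Af, x.m = 0 → x ≠ 1 → cls x = 1 ∨ cls x = 11 ∨ cls x = 13 := by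
  decide +kernel

/-- The centralizer order. -/
def centCard (x : Af) : ℕ := (Finset.univ.filter fun y : Af => y * x = x * y).card

theorem centCard_conj (g x : Af) : centCard (g * x * g⁻¹) = centCard x := by
  refine Finset.card_bij' (fun y _ => g⁻¹ * y * g) (fun y _ => g * y * g⁻¹) ?_ ?_ ?_ ?_
  · intro y hy
    simp only [Finset.mem_filter, Finset.mem_univ, true_and] at hy ⊢
    calc g⁻¹ * y * g * x = g⁻¹ * (y * (g * x * g⁻¹)) * g := by group
    _ = g⁻¹ * (g * x * g⁻¹ * y) * g := by rw [hy]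
    _ = x * (g⁻¹ * y * g) := by group
  · intro y hy
    simp only [Finset.mem_filter, Finset.mem_univ, true_and] at hy ⊢
    calc g * y * g⁻¹ * (g * x * g⁻¹) = g * (y * x) * g⁻¹ := by group
    _ = g * (x * y) * g⁻¹ := by rw [hy]
    _ = _ := by group
  · intro y _; group
  · intro y _; group

theorem exists_conj_rep : ∀ x : Af, (cls x = 1 ∨ cls x = 3 ∨ cls x = 4 ∨ cls x = 11 ∨ cls x = 13) →
    ∃ g : Af, g * rep (cls x) * g⁻¹ = x := by decide +kernel

theorem conj_of_cls_eq {x y : Af}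
    (hx : cls x = 1 ∨ cls x = 3 ∨ cls x = 4 ∨ cls x = 11 ∨ cls x = 13) (h : cls x = cls y) :
    IsConj x y := by
  obtain ⟨g, hg⟩ := exists_conj_rep x hx
  obtain ⟨g', hg'⟩ := exists_conj_rep y (h ▸ hx)
  rw [← h] at hg'
  exact (isConj_iff.mpr ⟨g, hg⟩).symm.trans (isConj_iff.mpr ⟨g', hg'⟩)

theorem centCard_rep : centCard (rep 1) = 108 ∧ centCard (rep 11) = 54 ∧ centCard (rep 13) = 81 := by
  decide +kernel

theorem cls_of_centCard {x y : Af} (hx : x.m = 0) (hx1 : x ≠ 1) (hy : y.m = 0) (hy1 : y ≠ 1)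
    (h : centCard x = centCard y) : IsConj x y := by
  have key : ∀ z : Af, z.m = 0 → z ≠ 1 → centCard z = centCard (rep (cls z)) := fun z hz hz1 => by
    obtain ⟨g, hg⟩ := exists_conj_rep z (by rcases trans_cls z hz hz1 with e | e | e <;> simp [e])
    conv_lhs => rw [← hg, centCard_conj]
  rw [key x hx hx1, key y hy hy1] at h
  obtain ⟨a, b, c⟩ := centCard_rep
  refine conj_of_cls_eq ?_ ?_
  · rcases trans_cls x hx hx1 with e | e | e <;> simp [e]
  · rcases trans_cls x hx hx1 with e | e | e <;> rcases trans_cls y hy hy1 with e' | e' | e' <;>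
      rw [e, e'] at h ⊢ <;> simp_all

/-- Pairs of involution classes with a given product. -/
def npairs (cu cw : Fin 14) (x : Af) : ℕ :=
  (Finset.univ.filter fun y : Af => cls y = cu ∧ cls (y⁻¹ * x) = cw).card

theorem npairs_conj (cu cw : Fin 14) (g x : Af) : npairs cu cw (g * x * g⁻¹) = npairs cu cw x := by
  refine Finset.card_bij' (fun y _ => g⁻¹ * y * g) (fun y _ => g * y * g⁻¹) ?_ ?_ ?_ ?_
  · intro y hy
    simp only [Finset.mem_filter, Finset.mem_univ, true_and] at hy ⊢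
    refine ⟨?_, ?_⟩
    · rw [show g⁻¹ * y * g = g⁻¹ * y * g⁻¹⁻¹ by rw [inv_inv], cls_conj]; exact hy.1
    · rw [show (g⁻¹ * y * g)⁻¹ * x = g⁻¹ * (y⁻¹ * (g * x * g⁻¹)) * g⁻¹⁻¹ by group, cls_conj]
      exact hy.2
  · intro y hy
    simp only [Finset.mem_filter, Finset.mem_univ, true_and] at hy ⊢
    refine ⟨by rw [cls_conj]; exact hy.1, ?_⟩
    rw [show (g * y * g⁻¹)⁻¹ * (g * x * g⁻¹) = g * (y⁻¹ * x) * g⁻¹ by group, cls_conj]
    exact hy.2
  · intro y _; group
  · intro y _; group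

end Af

/-- Counts of pairs by class of the product. -/
def nTab : Fin 3 → Fin 14 → ℕ :=
  ![![27, 18, 0, 6, 0, 0, 0, 0, 0, 0, 0, 9, 6, 0],
    ![0, 0, 0, 0, 3, 0, 3, 6, 0, 6, 6, 0, 0, 0],
    ![54, 18, 9, 6, 0, 9, 0, 0, 9, 0, 0, 9, 6, 27]]

/-- The class pairs. -/
def pairCls : Fin 3 → Fin 14 × Fin 14 := ![(3, 3), (3, 4), (4, 4)]

theorem npairs_gen : ∀ t : Fin 3, ∀ c : Fin 14,
    Af.npairs (pairCls t).1 (pairCls t).2 (Af.rep c) = nTab t c := by decide +kernel

/-- The monomial data. -/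
def monOne : Mon := ⟨1, Data.mon_one, one_ne_zero⟩
/-- Blocks. -/
def monPi : Mon := ⟨3, Data.mon_pi3, by norm_num⟩
/-- Signs on blocks. -/
def monM : Mon := ⟨3, Data.mon_M, by norm_num⟩
/-- Signs on blocks, twisted. -/
def monN : Mon := ⟨3, Data.mon_N, by norm_num⟩
/-- Degree six. -/
def monA : Mon := ⟨6, Data.mon_A, by norm_num⟩
/-- Degree six, irrational. -/
def monA1 : Mon := ⟨6, Data.mon_A1, by norm_num⟩
/-- Degree six, irrational. -/
def monA2 : Mon := ⟨6, Data.mon_A2, by norm_num⟩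
/-- Degree eight. -/
def monC1 : Mon := ⟨8, Data.mon_C1, by norm_num⟩
/-- Degree eight. -/
def monC2 : Mon := ⟨8, Data.mon_C2, by norm_num⟩
/-- Degree twelve. -/
def monB : Mon := ⟨12, Data.mon_B, by norm_num⟩

theorem mon_ok : monOne.Ok ∧ monPi.Ok ∧ monM.Ok ∧ monN.Ok ∧ monA.Ok ∧ monA1.Ok ∧ monA2.Ok ∧
    monC1.Ok ∧ monC2.Ok ∧ monB.Ok := by decide +kernel

instance (M : Mon) : Decidable M.Sym := by unfold Mon.Sym; infer_instance

theorem monOne_sym : monOne.Sym := by decide +kernel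

theorem monPi_sym : monPi.Sym := by decide +kernel

theorem monM_sym : monM.Sym := by decide +kernel

theorem monN_sym : monN.Sym := by decide +kernel

theorem monA_sym : monA.Sym := by decide +kernel

theorem monA1_sym : monA1.Sym := by decide +kernel

theorem monA2_sym : monA2.Sym := by decide +kernel

theorem monC1_sym : monC1.Sym := by decide +kernel

theorem monC2_sym : monC2.Sym := by decide +kernel

theorem monB_sym : monB.Sym := by decide +kernel

theorem mon_sym : monOne.Sym ∧ monPi.Sym ∧ monM.Sym ∧ monN.Sym ∧ monA.Sym ∧ monA1.Sym ∧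
    monA2.Sym ∧ monC1.Sym ∧ monC2.Sym ∧ monB.Sym :=
  ⟨monOne_sym, monPi_sym, monM_sym, monN_sym, monA_sym,
    monA1_sym, monA2_sym, monC1_sym, monC2_sym, monB_sym⟩

/-- The six functions as combinations of characters. -/
def comb : Fin 6 → Af → ℤ√3 :=
  ![fun x => monPi.val x - monOne.val x + monM.val x + monN.val x - monC1.val x,
    fun x => monM.val x + monN.val x - monA1.val x,
    fun x => monM.val x + monN.val x - monA2.val x,
    fun x => monC1.val x - monC2.val x,
    fun x => monPi.val x + monM.val x - monA.val x,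
    fun x => monOne.val x + monN.val x + monC1.val x - monB.val x]

/-- Their values on classes. -/
def vTab : Fin 6 → Fin 14 → ℤ√3 :=
  ![![0, 12, 0, 0, 0, -3, 0, 0, 0, 0, 0, 6, 0, 9],
    ![0, 3, 0, 0, 0, 0, 0, 0, 0, ⟨0, -1⟩, ⟨0, 1⟩, 6, -3, 9],
    ![0, 3, 0, 0, 0, 0, 0, 0, 0, ⟨0, 1⟩, ⟨0, -1⟩, 6, -3, 9],
    ![0, 0, 0, 0, 0, 3, 0, 0, -3, 0, 0, 0, 0, 0],
    ![0, 3, 0, 0, 0, 0, 0, 0, 0, 3, 3, 6, 3, 9],
    ![0, 0, 0, 0, 0, 3, 3, 0, 0, 0, 0, 9, 0, 0]]

/-- The six functions. -/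
def vfun (i : Fin 6) (x : Af) : ℤ√3 := vTab i (Af.cls x)

theorem comb_eq0 : ∀ x : Af, comb 0 x = vfun 0 x := by decide +kernel

theorem comb_eq1 : ∀ x : Af, comb 1 x = vfun 1 x := by decide +kernel

theorem comb_eq2 : ∀ x : Af, comb 2 x = vfun 2 x := by decide +kernel

theorem comb_eq3 : ∀ x : Af, comb 3 x = vfun 3 x := by decide +kernel

theorem comb_eq4 : ∀ x : Af, comb 4 x = vfun 4 x := by decide +kernel

theorem comb_eq5 : ∀ x : Af, comb 5 x = vfun 5 x := by decide +kernel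

theorem comb_eq : ∀ i, ∀ x : Af, comb i x = vfun i x
  | 0 => comb_eq0
  | 1 => comb_eq1
  | 2 => comb_eq2
  | 3 => comb_eq3
  | 4 => comb_eq4
  | 5 => comb_eq5

theorem vTab_supp : ∀ i, ∀ c, c ∉ Af.dset → vTab i c = 0 := by decide +kernel

theorem gen_vfun (i : Fin 6) : IsGeneralizedCharacter Af (fun x => toC (vfun i x)) := by
  simp only [← comb_eq]
  obtain ⟨o1, o2, o3, o4, o5, o6, o7, o8, o9, o10⟩ := mon_ok
  obtain ⟨s1, s2, s3, s4, s5, s6, s7, s8, s9, s10⟩ := mon_sym
  have g : ∀ {M : Mon}, M.Ok → M.Sym → IsGeneralizedCharacter Af (fun x => toC (M.val x)) :=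
    fun h hs => CfsgLib.Chars.Exceptional.gen_of_char (Mon.isCharacter h hs)
  have hadd : ∀ {f h : Af → ℤ√3}, IsGeneralizedCharacter Af (fun x => toC (f x)) →
      IsGeneralizedCharacter Af (fun x => toC (h x)) →
      IsGeneralizedCharacter Af (fun x => toC (f x + h x)) := fun {f h} hf hh => by
    convert CfsgLib.Chars.Exceptional.gen_add hf hh using 1
    funext x; simp
  have hsub : ∀ {f h : Af → ℤ√3}, IsGeneralizedCharacter Af (fun x => toC (f x)) →
      IsGeneralizedCharacter Af (fun x => toC (h x)) →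
      IsGeneralizedCharacter Af (fun x => toC (f x - h x)) := fun {f h} hf hh => by
    convert CfsgLib.Chars.Exceptional.gen_sub hf hh using 1
    funext x; simp
  fin_cases i
  exacts [hsub (hadd (hadd (hsub (g o2 s2) (g o1 s1)) (g o3 s3)) (g o4 s4)) (g o8 s8),
    hsub (hadd (g o3 s3) (g o4 s4)) (g o6 s6), hsub (hadd (g o3 s3) (g o4 s4)) (g o7 s7),
    hsub (g o8 s8) (g o9 s9), hsub (hadd (g o2 s2) (g o3 s3)) (g o5 s5),
    hsub (hadd (hadd (g o1 s1) (g o4 s4)) (g o8 s8)) (g o10 s10)]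

end CfsgLib.AltNineCube
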