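import Cfsg.Agent.AltNineCube.Analysis
import Cfsg.Agent.TIThree.Family

/-!
# A constituent of degree two
-/

set_option autoImplicit false
set_option maxRecDepth 20000

namespace CfsgLib.AltNineCube

open scoped ComplexConjugate
open Cfsg CfsgLib.Chars CfsgLib.TIThree.Rows

universe u

variable {G : Type u} [Group G]

theorem list_sum_range {α : Type*} {M : Type*} [AddCommMonoid M] (g : α → M) (dflt : α) :
    ∀ L : List α, (L.map g).sum = ∑ k ∈ Finset.range L.length, g (L.getD k dflt)
  | [] => by simp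
  | a :: L => by
    rw [List.map_cons, List.sum_cons, List.length_cons, Finset.sum_range_succ', add_comm,
      list_sum_range g dflt L]
    simp

theorem real_of_sq_one [Finite G] (χ : IrrCharacter G) {g : G} (hg : g ^ 2 = 1) :
    (χ : G → ℂ) g = (((χ : G → ℂ) g).re : ℂ) := by
  obtain ⟨n, ρ, -, hρ⟩ := χ.2
  have h := map_inv_eq_conj ⟨n, ρ, hρ⟩ g
  rw [inv_eq_of_mul_eq_one_right (by rwa [← pow_two])] at h
  exact (Complex.conj_eq_iff_re.mp h.symm).symm

/-- The six rows. -/
noncomputable def rows (φ : Af →* G) : List (IrrCharacter G → ℤ) :=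
  [coefZ φ 0, coefZ φ 1, coefZ φ 2, coefZ φ 3, coefZ φ 4, coefZ φ 5]

namespace Emb

variable [Fintype G] (S : Emb G)

theorem gram_int (i j : Fin 6) :
    ∑ χ : IrrCharacter G, coefZ S.φ i χ * coefZ S.φ j χ = ipTab i j := by
  have h := S.sum_coef_mul i j
  simp only [← coefZ_spec, map_intCast] at h
  exact_mod_cast h

theorem coefZ_one (i : Fin 6) : coefZ S.φ i (oneChar G) = baseTab i := by
  have h := S.coef_one i
  rw [← coefZ_spec] at h
  exact_mod_cast h

theorem degree_sum (i : Fin 6) :
    ∑ χ : IrrCharacter G, coefZ S.φ i χ * (charDegree (χ : G → ℂ) : ℤ) = 0 := by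
  have h := S.sum_coef_regular i (g := 1) (one_pow 2)
  simp only [← coefZ_spec, TIThree.degree_int] at h
  exact_mod_cast h

theorem fits (prev : List (Fin 6)) (i : Fin 6) (s : Spec) (hb : s.base = baseTab i)
    (hn : (s.norm : ℤ) = ipTab i i) (hp : s.prods = prev.map fun j => ipTab j i)
    (hb1 : s.base.natAbs ≤ 1) (hn4 : s.norm ≤ s.base.natAbs ^ 2 + 4) :
    Fits (oneChar G) (prev.map (coefZ S.φ)) s (coefZ S.φ i) := by
  classical
  have hone : coefZ S.φ i (oneChar G) = s.base := by rw [hb, S.coefZ_one]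
  have hnorm : ∑ χ : IrrCharacter G, coefZ S.φ i χ * coefZ S.φ i χ = s.norm := by
    rw [hn, S.gram_int]
  refine ⟨hone, fun x => ?_, hnorm, ?_⟩
  · by_contra hx
    simp only [not_or] at hx
    have h2 : 2 ≤ (coefZ S.φ i x).natAbs := by omega
    have hxo : x ≠ oneChar G := fun e => by
      rw [e, hone] at h2; omega
    have hrest : ∀ y, y ≠ x → y ≠ oneChar G → coefZ S.φ i y = 0 := by
      intro y hyx hyo
      by_contra hy
      have hle : ∑ χ ∈ ({oneChar G, x, y} : Finset (IrrCharacter G)),
          coefZ S.φ i χ * coefZ S.φ i χ ≤ s.norm := by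
        rw [← hnorm]
        exact Finset.sum_le_sum_of_subset_of_nonneg (Finset.subset_univ _)
          fun χ _ _ => mul_self_nonneg _
      rw [Finset.sum_insert (by simp [hxo.symm, Ne.symm hyo]), Finset.sum_pair (Ne.symm hyx),
        hone] at hle
      have hy1 : 1 ≤ coefZ S.φ i y * coefZ S.φ i y := by
        have := mul_self_pos.mpr hy
        omega
      have hx4 : 4 ≤ coefZ S.φ i x * coefZ S.φ i x := by
        rw [← Int.natAbs_mul_self]
        exact_mod_cast Nat.mul_le_mul h2 h2
      have hbb : s.base * s.base = ((s.base.natAbs ^ 2 : ℕ) : ℤ) := by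
        rw [pow_two, Int.natAbs_mul_self]
      omega
    have h0 := S.degree_sum i
    rw [← Finset.sum_subset (Finset.subset_univ ({oneChar G, x} : Finset (IrrCharacter G)))
      (fun y _ hy => by
        simp only [Finset.mem_insert, Finset.mem_singleton, not_or] at hy
        rw [hrest y hy.2 hy.1, zero_mul]), Finset.sum_pair hxo.symm, hone] at h0
    have h1 : (charDegree ((oneChar G : IrrCharacter G) : G → ℂ) : ℤ) = 1 := by
      exact_mod_cast charDegree_eq_of_map_one (n := 1) (by rw [oneChar_apply, Nat.cast_one])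
    rw [h1, mul_one] at h0
    have habs : (coefZ S.φ i x * (charDegree (x : G → ℂ) : ℤ)).natAbs = s.base.natAbs := by
      rw [show coefZ S.φ i x * (charDegree (x : G → ℂ) : ℤ) = -s.base by linarith, Int.natAbs_neg]
    rw [Int.natAbs_mul, Int.natAbs_natCast] at habs
    have := Nat.mul_le_mul h2 (charDegree_pos x)
    omega
  · rw [hp, List.map_map]
    exact List.map_congr_left fun j _ => S.gram_int j i

theorem allFit : AllFit (oneChar G) [] specs (rows S.φ) :=
  ⟨S.fits [] 0 _ rfl rfl rfl (by decide) (by decide),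
    S.fits [0] 1 _ rfl rfl rfl (by decide) (by decide),
    S.fits [0, 1] 2 _ rfl rfl rfl (by decide) (by decide),
    S.fits [0, 1, 2] 3 _ rfl rfl rfl (by decide) (by decide),
    S.fits [0, 1, 2, 3] 4 _ rfl rfl rfl (by decide) (by decide),
    S.fits [0, 1, 2, 3, 4] 5 _ rfl rfl rfl (by decide) (by decide), trivial⟩

theorem invo_sq (e : Fin 2) : invo S e ^ 2 = 1 := by
  have : Af.rep 3 ^ 2 = 1 ∧ Af.rep 4 ^ 2 = 1 := by decide
  fin_cases e
  · show S.φ (Af.rep 3) ^ 2 = 1
    rw [← map_pow, this.1, map_one]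
  · show S.φ (Af.rep 4) ^ 2 = 1
    rw [← map_pow, this.2, map_one]

/-- The scaled real part of a value at one of the involutions. -/
noncomputable def scaled (e : Fin 2) (χ : IrrCharacter G) : ℝ :=
  Real.sqrt (Nat.card G) / (centNum (invo S e) : ℝ) * ((χ : G → ℂ) (invo S e)).re

theorem relation_degree (i : Fin 6) :
    ∑ χ : IrrCharacter G, (coefZ S.φ i χ : ℝ) * (charDegree (χ : G → ℂ) : ℝ) = 0 := by
  exact_mod_cast S.degree_sum i

theorem relation_scaled (i : Fin 6) (e : Fin 2) :
    ∑ χ : IrrCharacter G, (coefZ S.φ i χ : ℝ) * S.scaled e χ = 0 := by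
  have h := S.sum_coef_regular i (S.invo_sq e)
  simp only [← coefZ_spec] at h
  have h' : ((∑ χ : IrrCharacter G, (coefZ S.φ i χ : ℝ) * ((χ : G → ℂ) (invo S e)).re : ℝ) : ℂ) =
      0 := by
    push_cast
    rw [← h]
    exact Finset.sum_congr rfl fun χ _ => by rw [← real_of_sq_one χ (S.invo_sq e)]
  rw [Complex.ofReal_eq_zero] at h'
  calc _ = Real.sqrt (Nat.card G) / (centNum (invo S e) : ℝ) *
        ∑ χ : IrrCharacter G, (coefZ S.φ i χ : ℝ) * ((χ : G → ℂ) (invo S e)).re := by
        rw [Finset.mul_sum]; exact Finset.sum_congr rfl fun χ _ => by rw [scaled]; ring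
  _ = 0 := by rw [h', mul_zero]

theorem relation_defect (i : Fin 6) (e f : Fin 2) (t : Fin 3)
    (he : invo S e = S.φ (Af.rep (pairCls t).1)) (hf : invo S f = S.φ (Af.rep (pairCls t).2)) :
    ∑ χ : IrrCharacter G, (coefZ S.φ i χ : ℝ) *
      (S.scaled e χ * S.scaled f χ / (charDegree (χ : G → ℂ) : ℝ)) = (defTab t i : ℝ) / 2 := by
  have h := S.defect t i
  rw [← he, ← hf] at h
  simp only [← coefZ_spec] at h
  set N : ℝ := (Nat.card G : ℝ) with hN
  set a : ℝ := (centNum (invo S e) : ℝ) with ha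
  set b : ℝ := (centNum (invo S f) : ℝ) with hb
  set F : ℝ := ∑ χ : IrrCharacter G, (coefZ S.φ i χ : ℝ) *
    (((χ : G → ℂ) (invo S e)).re * ((χ : G → ℂ) (invo S f)).re / (charDegree (χ : G → ℂ) : ℝ))
    with hF
  have h' : ((N * F : ℝ) : ℂ) = ((a * b * ((defTab t i : ℝ) / 2) : ℝ) : ℂ) := by
    simp only [hN, hF, ha, hb]
    push_cast
    rw [← h]
    congr 1
    exact Finset.sum_congr rfl fun χ _ => by
      rw [← real_of_sq_one χ (S.invo_sq e), ← real_of_sq_one χ (S.invo_sq f), coe_charDegree]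
  rw [Complex.ofReal_inj] at h'
  have ha0 : a ≠ 0 := by simp only [ha]; exact_mod_cast (centNum_pos _).ne'
  have hb0 : b ≠ 0 := by simp only [hb]; exact_mod_cast (centNum_pos _).ne'
  have hN0 : 0 ≤ N := by simp [hN]
  calc _ = Real.sqrt N * Real.sqrt N / (a * b) * F := by
        rw [hF, Finset.mul_sum]
        exact Finset.sum_congr rfl fun χ _ => by simp only [scaled, hN, ha, hb]; ring
  _ = _ := by rw [Real.mul_self_sqrt hN0]; field_simp; linear_combination 2 * h'

/-- A constituent of degree two occurring in the first function. -/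
theorem exists_degree_two :
    ∃ χ : IrrCharacter G, (χ : G → ℂ) 1 = 2 ∧ coef S.φ 0 (χ : G → ℂ) = 1 := by
  classical
  obtain ⟨st', hst, l, hl⟩ := enum_sound (oneChar G) specs (rows S.φ) S.allFit
  obtain ⟨hsgn, hnd, hcols, hout⟩ := hl
  set L : List (IrrCharacter G × ℤ) := (oneChar G, 1) :: l with hL
  set P : ℕ → IrrCharacter G × ℤ := fun k => L.getD k (oneChar G, 1) with hP
  have hLsgn : ∀ k, (P k).2 = 1 ∨ (P k).2 = -1 := by
    intro k
    by_cases hk : k < L.length
    · have hm : P k ∈ L := by rw [hP]; simp only; rw [List.getD_eq_getElem _ _ hk]; exact List.getElem_mem hk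
      rcases List.mem_cons.mp hm with e | e
      · rw [e]; exact Or.inl rfl
      · exact hsgn _ e
    · rw [hP]; simp only; rw [List.getD_eq_default _ _ (by omega)]; exact Or.inl rfl
  have hcols' : st' = L.map (col (rows S.φ)) := hcols
  have hlen : st'.length = L.length := by rw [hcols', List.length_map]
  have hget : ∀ (i : Fin 6) (p : IrrCharacter G × ℤ),
      (col (rows S.φ) p).getD (i : ℕ) 0 = p.2 * coefZ S.φ i p.1 := by
    intro i p
    fin_cases i <;> rfl
  have hcol : ∀ k, k < L.length → st'.getD k [] = col (rows S.φ) (P k) := by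
    intro k hk
    rw [hcols', List.getD_eq_getElem _ _ (by simpa using hk), List.getElem_map, hP]
    simp only
    rw [List.getD_eq_getElem _ _ hk]
  have hmom : ∀ (i : Fin 6) (f : IrrCharacter G → ℝ) (v : ℝ),
      ∑ χ, (coefZ S.φ i χ : ℝ) * f χ = v →
      mom st' i (fun k => ((P k).2 : ℝ) * f (P k).1) = v := by
    intro i f v hv
    have hLnd : (L.map Prod.fst).Nodup := hnd
    have hi : coefZ S.φ i ∈ rows S.φ := by fin_cases i <;> simp [rows]
    rw [← hv, ← Finset.sum_subset (Finset.subset_univ (L.map Prod.fst).toFinset) (fun χ _ hχ => by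
      rw [hout χ (fun hm => hχ (List.mem_toFinset.mpr hm)) _ hi, Int.cast_zero, zero_mul]),
      List.sum_toFinset _ hLnd, List.map_map, list_sum_range _ (oneChar G, 1), mom, hlen]
    refine Finset.sum_congr rfl fun k hk => ?_
    rw [Finset.mem_range] at hk
    rw [hcol k hk, hget]
    show _ = (coefZ S.φ i (P k).1 : ℝ) * f (P k).1
    have hsq : ((P k).2 : ℝ) * ((P k).2 : ℝ) = 1 := by
      rcases hLsgn k with e | e <;> simp [e]
    push_cast
    linear_combination ((coefZ S.φ i (P k).1 : ℝ) * f (P k).1) * hsq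
  have hdeg : ∀ k, (charDegree ((P k).1 : G → ℂ) : ℝ) ≠ 0 := fun k =>
    Nat.cast_ne_zero.mpr (charDegree_pos _).ne'
  have hcfg : Config st' (fun k => ((P k).2 : ℝ) * (charDegree ((P k).1 : G → ℂ) : ℝ))
      (fun k => S.scaled 0 (P k).1 / (charDegree ((P k).1 : G → ℂ) : ℝ))
      (fun k => S.scaled 1 (P k).1 / (charDegree ((P k).1 : G → ℂ) : ℝ)) := by
    constructor
    · intro k
      rcases hLsgn k with e | e <;> simp [e, hdeg k]
    · show ((1 : ℤ) : ℝ) * (charDegree ((oneChar G : IrrCharacter G) : G → ℂ) : ℝ) = 1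
      rw [charDegree_eq_of_map_one (n := 1) (by rw [oneChar_apply, Nat.cast_one])]
      simp
    · exact fun i => hmom i _ 0 (S.relation_degree i)
    · intro i
      rw [← hmom i _ 0 (S.relation_scaled i 0)]
      refine congrArg _ (funext fun k => ?_)
      field_simp [hdeg k]
    · intro i
      rw [← hmom i _ 0 (S.relation_scaled i 1)]
      refine congrArg _ (funext fun k => ?_)
      field_simp [hdeg k]
    · intro i
      rw [← hmom i _ _ (S.relation_defect i 0 0 0 rfl rfl)]
      refine congrArg _ (funext fun k => ?_)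
      field_simp [hdeg k]
    · intro i
      rw [← hmom i _ _ (S.relation_defect i 0 1 1 rfl rfl)]
      refine congrArg _ (funext fun k => ?_)
      field_simp [hdeg k]
    · intro i
      rw [← hmom i _ _ (S.relation_defect i 1 1 2 rfl rfl)]
      refine congrArg _ (funext fun k => ?_)
      field_simp [hdeg k]
  obtain ⟨hst3, h6⟩ := analysis (enum_eq ▸ hst) hcfg
  have hk : 6 < L.length := by rw [← hlen, hst3]; decide
  have hd : 0 < (charDegree ((P 6).1 : G → ℂ) : ℝ) := Nat.cast_pos.mpr (charDegree_pos _)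
  have hs6 : (P 6).2 = 1 := by
    rcases hLsgn 6 with e | e
    · exact e
    · simp [e] at h6; linarith
  refine ⟨(P 6).1, ?_, ?_⟩
  · simp only [hs6, Int.cast_one, one_mul] at h6
    have h2 : charDegree ((P 6).1 : G → ℂ) = 2 := by exact_mod_cast h6
    rw [← coe_charDegree, h2, Nat.cast_ofNat]
  · have h := hget 0 (P 6)
    rw [hs6, one_mul] at h
    rw [← coefZ_spec, ← h]
    have : (st'.getD 6 []).getD 0 0 = 1 := by rw [hst3]; decide
    rw [hcol 6 hk] at this
    show (((col (rows S.φ) (P 6)).getD 0 0 : ℤ) : ℂ) = 1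
    rw [show (col (rows S.φ) (P 6)).getD 0 0 = 1 from this, Int.cast_one]

end Emb

end CfsgLib.AltNineCube
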