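import Cfsg.Agent.AltNineCube.Setting
import Cfsg.Agent.AltNineCube.ConjData
import Cfsg.Agent.TIThree.Rows
import Cfsg.Agent.Chars.Exceptional.Inner

/-!
# Decomposition of the six virtual characters
-/

set_option autoImplicit false
set_option maxRecDepth 20000

namespace CfsgLib.AltNineCube

open scoped ComplexConjugate
open Cfsg CfsgLib.Chars CfsgLib.TIThree.Rows

universe u

variable {G : Type u} [Group G]

/-- The inner product of a restriction with one of the six functions. -/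
noncomputable def coef (φ : Af →* G) (i : Fin 6) (χ : G → ℂ) : ℂ :=
  classInner (fun k => χ (φ k)) (fun k => toC (vfun i k))

theorem coef_eq (φ : Af →* G) (i : Fin 6) (χ : G → ℂ) :
    coef φ i χ = (Nat.card Af : ℂ)⁻¹ * ∑ k, χ (φ k) * toC (vfun i k) := by
  simp [coef, classInner, conj_toC]

theorem exists_coef_int [Finite G] (φ : Af →* G) (i : Fin 6) (χ : IrrCharacter G) :
    ∃ m : ℤ, coef φ i (χ : G → ℂ) = m := by
  obtain ⟨n, ρ, -, hρ⟩ := χ.2
  refine Exceptional.gen_inner_int (Exceptional.gen_of_char ⟨n, ρ.comp φ, ?_⟩) (gen_vfun i)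
  rw [← hρ]
  rfl

/-- The integer coefficient. -/
noncomputable def coefZ (φ : Af →* G) (i : Fin 6) (χ : IrrCharacter G) : ℤ :=
  ⌊(coef φ i (χ : G → ℂ)).re⌋

theorem coefZ_spec [Finite G] (φ : Af →* G) (i : Fin 6) (χ : IrrCharacter G) :
    (coefZ φ i χ : ℂ) = coef φ i (χ : G → ℂ) := by
  obtain ⟨m, hm⟩ := exists_coef_int φ i χ
  simp [coefZ, hm]

theorem vfun_zero (i : Fin 6) {k : Af} (hk : Af.cls k ∉ Af.dset) : vfun i k = 0 :=
  vTab_supp i _ hk

/-- Inner products on the class table. -/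
def gram (i j : Fin 6) : ℤ√3 := ∑ c, (Af.size c : ℤ√3) * (vTab i c * vTab j c)

/-- The invariants. -/
def specs : List Spec :=
  [⟨0, 4, []⟩, ⟨0, 3, [2]⟩, ⟨0, 3, [2, 2]⟩, ⟨0, 2, [-1, 0, 0]⟩, ⟨1, 4, [2, 1, 1, 0]⟩,
    ⟨1, 4, [0, 1, 1, 1, 1]⟩]

/-- The inner products. -/
def ipTab : Fin 6 → Fin 6 → ℤ :=
  ![![4, 2, 2, -1, 2, 0], ![2, 3, 2, 0, 1, 1], ![2, 2, 3, 0, 1, 1], ![-1, 0, 0, 2, 0, 1],
    ![2, 1, 1, 0, 4, 1], ![0, 1, 1, 1, 1, 4]]

/-- Values at the trivial character. -/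
def baseTab : Fin 6 → ℤ := ![0, 0, 0, 0, 1, 1]

theorem gram_eq : ∀ i j, gram i j = ((648 * ipTab i j : ℤ) : ℤ√3) := by decide +kernel

theorem base_eq : ∀ i, (∑ c, (Af.size c : ℤ√3) * vTab i c) = ((648 * baseTab i : ℤ) : ℤ√3) := by
  decide +kernel

theorem card_Af : Nat.card Af = 648 := by
  rw [Nat.card_eq_fintype_card]; rfl

theorem toC_int (n : ℤ) : toC (n : ℤ√3) = (n : ℂ) := map_intCast toC n

namespace Emb

variable (S : Emb G)

theorem not_conj_regular [Finite G] {k : Af} (hk : Af.cls k ∈ Af.dset) {g : G} (hg : g ^ 2 = 1) :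
    ¬ IsConj g (S.φ k) := fun h => by
  obtain ⟨c, hc⟩ := isConj_iff.mp h
  refine Af.dset_sq k hk (S.inj ?_)
  rw [map_pow, ← hc, conj_pow, hg, mul_one, mul_inv_cancel, map_one]

variable [Fintype G]

/-- The number of elements conjugating one element of the special classes to another. -/
theorem card_trans {a b : Af} (ha : Af.cls a ∈ Af.dset) :
    Nat.card {g : G // g * S.φ a * g⁻¹ = S.φ b} = CfsgLib.TIThree.transCount a b := by
  rw [CfsgLib.TIThree.transCount, ← Fintype.card_subtype, ← Nat.card_eq_fintype_card]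
  symm
  refine Nat.card_eq_of_bijective (fun h => ⟨S.φ h.1, by simpa using congrArg S.φ h.2⟩) ⟨?_, ?_⟩
  · intro x y e
    exact Subtype.ext (S.inj (congrArg Subtype.val e))
  · rintro ⟨g, hg⟩
    obtain ⟨k, rfl⟩ := S.mem_range ha hg
    exact ⟨⟨k, S.inj (by simpa using hg)⟩, rfl⟩

/-- The Gram relation. -/
theorem sum_coef_mul (i j : Fin 6) :
    ∑ χ : IrrCharacter G, coef S.φ i (χ : G → ℂ) * conj (coef S.φ j (χ : G → ℂ)) =
      (ipTab i j : ℂ) := by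
  simp only [coef_eq, map_mul, map_sum, map_inv₀, map_natCast, conj_toC]
  have e : ∀ χ : IrrCharacter G,
      (Nat.card Af : ℂ)⁻¹ * (∑ k : Af, (χ : G → ℂ) (S.φ k) * toC (vfun i k)) *
        ((Nat.card Af : ℂ)⁻¹ * ∑ l : Af, conj ((χ : G → ℂ) (S.φ l)) * toC (vfun j l)) =
      (Nat.card Af : ℂ)⁻¹ * (Nat.card Af : ℂ)⁻¹ * ∑ k : Af, ∑ l : Af,
        toC (vfun i k) * toC (vfun j l) * ((χ : G → ℂ) (S.φ k) * conj ((χ : G → ℂ) (S.φ l))) := by
    intro χ
    rw [mul_mul_mul_comm, Finset.sum_mul_sum]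
    congr 1
    refine Finset.sum_congr rfl fun k _ => Finset.sum_congr rfl fun l _ => ?_
    ring
  rw [Finset.sum_congr rfl fun χ _ => e χ, ← Finset.mul_sum, Finset.sum_comm]
  have e2 : ∀ k : Af, ∑ χ : IrrCharacter G, ∑ l : Af,
      toC (vfun i k) * toC (vfun j l) * ((χ : G → ℂ) (S.φ k) * conj ((χ : G → ℂ) (S.φ l))) =
      (Nat.card Af : ℂ) * toC (vfun i k * vfun j k) := by
    intro k
    by_cases hk : Af.cls k ∈ Af.dset
    swap
    · simp [vfun_zero i hk]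
    rw [Finset.sum_comm]
    simp only [← Finset.mul_sum, CfsgLib.TIThree.sum_irr_mul_conj_eq_card, S.card_trans hk]
    have hw : ∀ h : Af, vfun j (h * k * h⁻¹) = vfun j k := fun h => by rw [vfun, vfun, Af.cls_conj]
    have e3 : ∑ l : Af, toC (vfun j l) * (CfsgLib.TIThree.transCount k l : ℂ) =
        (Nat.card Af : ℂ) * toC (vfun j k) := by
      have : ∀ l : Af, toC (vfun j l) * (CfsgLib.TIThree.transCount k l : ℂ) =
          ∑ h : Af, if h * k * h⁻¹ = l then toC (vfun j l) else 0 := by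
        intro l
        rw [CfsgLib.TIThree.transCount, ← Finset.sum_filter, Finset.sum_const, nsmul_eq_mul,
          mul_comm]
      rw [Finset.sum_congr rfl fun l _ => this l, Finset.sum_comm]
      simp [hw, Nat.card_eq_fintype_card]
    simp only [mul_assoc, ← Finset.mul_sum, e3, map_mul]
    ring
  rw [Finset.sum_congr rfl fun k _ => e2 k, ← Finset.mul_sum, mul_assoc,
    ← mul_assoc ((Nat.card Af : ℂ)⁻¹) (Nat.card Af : ℂ),
    inv_mul_cancel₀ (Nat.cast_ne_zero.mpr Nat.card_pos.ne'), one_mul, ← map_sum,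
    show (∑ x, vfun i x * vfun j x) = gram i j from Af.sum_cls fun c => vTab i c * vTab j c,
    gram_eq, toC_int, card_Af]
  push_cast
  ring

/-- The column relation at regular elements. -/
theorem sum_coef_regular (i : Fin 6) {g : G} (hg : g ^ 2 = 1) :
    ∑ χ : IrrCharacter G, coef S.φ i (χ : G → ℂ) * (χ : G → ℂ) g = 0 := by
  simp only [coef_eq, mul_assoc, Finset.sum_mul, ← Finset.mul_sum]
  rw [Finset.sum_comm]
  refine mul_eq_zero_of_right _ (Finset.sum_eq_zero fun k _ => ?_)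
  by_cases hk : Af.cls k ∈ Af.dset
  swap
  · simp [vfun_zero i hk]
  have h := sum_irr_mul_map_inv (S.φ k) g⁻¹
  rw [inv_inv, if_neg fun e => S.not_conj_regular hk (by rw [inv_pow, hg, inv_one]) e.symm] at h
  rw [show ∑ χ : IrrCharacter G, (χ : G → ℂ) (S.φ k) * (toC (vfun i k) * (χ : G → ℂ) g) =
      toC (vfun i k) * ∑ χ : IrrCharacter G, (χ : G → ℂ) (S.φ k) * (χ : G → ℂ) g by
    rw [Finset.mul_sum]; exact Finset.sum_congr rfl fun χ _ => by ring, h, mul_zero]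

theorem coef_one (i : Fin 6) : coef S.φ i ((oneChar G : IrrCharacter G) : G → ℂ) = (baseTab i : ℂ) := by
  rw [coef_eq]
  simp only [oneChar_apply, one_mul, ← map_sum]
  rw [show (∑ x, vfun i x) = ∑ c, (Af.size c : ℤ√3) * vTab i c from Af.sum_cls (vTab i), base_eq,
    toC_int, card_Af]
  push_cast
  ring

end Emb

/-- The number of centralising elements. -/
noncomputable def centNum (g : G) : ℕ := Nat.card {x : G // x * g * x⁻¹ = g}

theorem centNum_pos [Finite G] (g : G) : 0 < centNum g :=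
  haveI : Nonempty {x : G // x * g * x⁻¹ = g} := ⟨⟨1, by simp⟩⟩
  Nat.card_pos

/-- The involution of the first or second class. -/
def invo (S : Emb G) : Fin 2 → G := ![S.φ (Af.rep 3), S.φ (Af.rep 4)]

/-- Twice the defect of the six functions at the three pairs. -/
def defTab : Fin 3 → Fin 6 → ℤ :=
  ![![6, 0, 0, 0, 6, 3], ![0, 0, 0, 0, 6, 3], ![6, 6, 6, 0, 12, 9]]

theorem def_eq : ∀ t i, (∑ c, (Af.size c : ℤ√3) * (vTab i c * (nTab t c : ℤ√3))) =
    ((324 * defTab t i : ℤ) : ℤ√3) := by decide +kernel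

namespace Emb

variable (S : Emb G) [Fintype G]

/-- Counting pairs of involutions with a product in the special classes. -/
theorem involution_count (t : Fin 3) {z : Af} (hz : Af.cls z ∈ Af.dset) :
    (Nat.card G : ℂ) * ∑ χ : IrrCharacter G, (χ : G → ℂ) (S.φ (Af.rep (pairCls t).1)) *
      (χ : G → ℂ) (S.φ (Af.rep (pairCls t).2)) * conj ((χ : G → ℂ) (S.φ z)) / (χ : G → ℂ) 1 =
      (centNum (S.φ (Af.rep (pairCls t).1)) : ℂ) * (centNum (S.φ (Af.rep (pairCls t).2)) : ℂ) *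
        (Af.npairs (pairCls t).1 (pairCls t).2 z : ℂ) := by
  classical
  obtain ⟨h1, h2, hu, hv⟩ : ((pairCls t).1 = 3 ∨ (pairCls t).1 = 4) ∧
      ((pairCls t).2 = 3 ∨ (pairCls t).2 = 4) ∧ Af.rep (pairCls t).1 ^ 2 = 1 ∧
      Af.rep (pairCls t).2 ^ 2 = 1 := by fin_cases t <;> decide
  set u := S.φ (Af.rep (pairCls t).1) with hudef
  set v := S.φ (Af.rep (pairCls t).2) with hvdef
  rw [← CfsgLib.TIThree.card_pairs_eq_sum, ← Nat.cast_mul, ← Nat.cast_mul, Nat.cast_inj, mul_comm,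
    centNum, centNum, ← Nat.card_prod, Af.npairs, ← Fintype.card_subtype,
    ← Nat.card_eq_fintype_card, ← Nat.card_prod]
  have hx : ∀ x : {x : Af // Af.cls x = (pairCls t).1 ∧ Af.cls (x⁻¹ * z) = (pairCls t).2},
      IsConj u (S.φ x.1) ∧ IsConj v (S.φ (x.1⁻¹ * z)) := fun x =>
    ⟨(S.conj_involution h1).mpr x.2.1, (S.conj_involution h2).mpr x.2.2⟩
  choose c hc using fun x => isConj_iff.mp (hx x).1
  choose d hd using fun x => isConj_iff.mp (hx x).2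
  symm
  refine Nat.card_eq_of_bijective
    (fun x => ⟨(c x.1 * x.2.1.1, d x.1 * x.2.2.1), ?_⟩) ⟨?_, ?_⟩
  · calc c x.1 * x.2.1.1 * u * (c x.1 * x.2.1.1)⁻¹ * (d x.1 * x.2.2.1 * v * (d x.1 * x.2.2.1)⁻¹)
        = c x.1 * (x.2.1.1 * u * x.2.1.1⁻¹) * (c x.1)⁻¹ *
            (d x.1 * (x.2.2.1 * v * x.2.2.1⁻¹) * (d x.1)⁻¹) := by group
    _ = S.φ z := by
        rw [x.2.1.2, x.2.2.2, hc, hd, ← map_mul, mul_inv_cancel_left]
  · rintro ⟨x1, g1, k1⟩ ⟨x2, g2, k2⟩ e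
    have e' := congrArg Subtype.val e
    simp only [Prod.mk.injEq] at e'
    have hxx : x1 = x2 := Subtype.ext (S.inj (by
      calc S.φ x1.1 = c x1 * (g1.1 * u * g1.1⁻¹) * (c x1)⁻¹ := by rw [g1.2, hc]
      _ = c x1 * g1.1 * u * (c x1 * g1.1)⁻¹ := by group
      _ = c x2 * g2.1 * u * (c x2 * g2.1)⁻¹ := by rw [e'.1]
      _ = c x2 * (g2.1 * u * g2.1⁻¹) * (c x2)⁻¹ := by group
      _ = S.φ x2.1 := by rw [g2.2, hc]))
    subst hxx
    exact Prod.ext rfl (Prod.ext (Subtype.ext (mul_left_cancel e'.1))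
      (Subtype.ext (mul_left_cancel e'.2)))
  · rintro ⟨⟨g, h⟩, hgh⟩
    simp only at hgh
    set a := g * u * g⁻¹ with ha
    set b := h * v * h⁻¹ with hb
    have ha2 : a * a = 1 := by
      rw [← pow_two, ha, conj_pow, hudef, ← map_pow, hu, map_one, mul_one, mul_inv_cancel]
    have hb2 : b * b = 1 := by
      rw [← pow_two, hb, conj_pow, hvdef, ← map_pow, hv, map_one, mul_one, mul_inv_cancel]
    clear_value a b
    have hinv : a * S.φ z * a⁻¹ = S.φ z⁻¹ := by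
      rw [map_inv, ← hgh, mul_inv_rev, inv_eq_of_mul_eq_one_right ha2,
        inv_eq_of_mul_eq_one_right hb2, ← mul_assoc, ha2, one_mul]
    obtain ⟨x, hx'⟩ := S.mem_range hz hinv
    have hbx : b = S.φ (x⁻¹ * z) := by rw [map_mul, map_inv, hx', ← hgh, inv_mul_cancel_left]
    have hxu : Af.cls x = (pairCls t).1 :=
      (S.conj_involution h1).mp (isConj_iff.mpr ⟨g, ha.symm.trans hx'.symm⟩)
    have hxv : Af.cls (x⁻¹ * z) = (pairCls t).2 :=
      (S.conj_involution h2).mp (isConj_iff.mpr ⟨h, hb.symm.trans hbx⟩)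
    refine ⟨(⟨x, hxu, hxv⟩, ⟨(c ⟨x, hxu, hxv⟩)⁻¹ * g, ?_⟩, ⟨(d ⟨x, hxu, hxv⟩)⁻¹ * h, ?_⟩), ?_⟩
    · calc (c ⟨x, hxu, hxv⟩)⁻¹ * g * u * ((c ⟨x, hxu, hxv⟩)⁻¹ * g)⁻¹
          = (c ⟨x, hxu, hxv⟩)⁻¹ * (g * u * g⁻¹) * c ⟨x, hxu, hxv⟩ := by group
      _ = (c ⟨x, hxu, hxv⟩)⁻¹ *
            (c ⟨x, hxu, hxv⟩ * u * (c ⟨x, hxu, hxv⟩)⁻¹) * c ⟨x, hxu, hxv⟩ := by
          rw [hc, ← ha, ← hx']
      _ = u := by group
    · calc (d ⟨x, hxu, hxv⟩)⁻¹ * h * v * ((d ⟨x, hxu, hxv⟩)⁻¹ * h)⁻¹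
          = (d ⟨x, hxu, hxv⟩)⁻¹ * (h * v * h⁻¹) * d ⟨x, hxu, hxv⟩ := by group
      _ = (d ⟨x, hxu, hxv⟩)⁻¹ *
            (d ⟨x, hxu, hxv⟩ * v * (d ⟨x, hxu, hxv⟩)⁻¹) * d ⟨x, hxu, hxv⟩ := by
          rw [hd, ← hb, hbx]
      _ = v := by group
    · simp

/-- The defect relation. -/
theorem defect (t : Fin 3) (i : Fin 6) :
    (Nat.card G : ℂ) * ∑ χ : IrrCharacter G, coef S.φ i (χ : G → ℂ) *
      ((χ : G → ℂ) (S.φ (Af.rep (pairCls t).1)) * (χ : G → ℂ) (S.φ (Af.rep (pairCls t).2)) /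
        (χ : G → ℂ) 1) =
      (centNum (S.φ (Af.rep (pairCls t).1)) : ℂ) * (centNum (S.φ (Af.rep (pairCls t).2)) : ℂ) *
        ((defTab t i : ℂ) / 2) := by
  set P := (centNum (S.φ (Af.rep (pairCls t).1)) : ℂ) * (centNum (S.φ (Af.rep (pairCls t).2)) : ℂ)
  set w := fun χ : IrrCharacter G => (χ : G → ℂ) (S.φ (Af.rep (pairCls t).1)) *
    (χ : G → ℂ) (S.φ (Af.rep (pairCls t).2))
  have key : ∀ k : Af, toC (vfun i k) * ((Nat.card G : ℂ) *
      ∑ χ : IrrCharacter G, w χ * (χ : G → ℂ) (S.φ k) / (χ : G → ℂ) 1) =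
      P * toC (vTab i (Af.cls k) * (nTab t (Af.cls k) : ℤ√3)) := by
    intro k
    by_cases hk : Af.cls k ∈ Af.dset
    swap
    · simp [vfun_zero i hk, vTab_supp i _ hk]
    have h := S.involution_count t (z := k⁻¹) (by rw [Af.cls_inv]; exact hk)
    have hc : ∀ χ : IrrCharacter G, conj ((χ : G → ℂ) (S.φ k⁻¹)) = (χ : G → ℂ) (S.φ k) := fun χ => by
      obtain ⟨n, ρ, -, hρ⟩ := χ.2
      rw [map_inv, map_inv_eq_conj ⟨n, ρ, hρ⟩, Complex.conj_conj]
    simp only [hc] at h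
    rw [h, npairs_eq, Af.cls_inv, map_mul, map_natCast, vfun]
    ring
  have hsum : ∑ k : Af, P * toC (vTab i (Af.cls k) * (nTab t (Af.cls k) : ℤ√3)) =
      P * ((324 * defTab t i : ℤ) : ℂ) := by
    rw [← Finset.mul_sum, ← map_sum, Af.sum_cls (fun c => vTab i c * (nTab t c : ℤ√3)), def_eq,
      toC_int]
  have hlhs : ∑ k : Af, toC (vfun i k) * ((Nat.card G : ℂ) *
      ∑ χ : IrrCharacter G, w χ * (χ : G → ℂ) (S.φ k) / (χ : G → ℂ) 1) =
      (Nat.card G : ℂ) * ∑ χ : IrrCharacter G, (∑ k : Af, (χ : G → ℂ) (S.φ k) * toC (vfun i k)) *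
        (w χ / (χ : G → ℂ) 1) := by
    simp only [Finset.mul_sum, Finset.sum_mul]
    rw [Finset.sum_comm]
    exact Finset.sum_congr rfl fun χ _ => Finset.sum_congr rfl fun k _ => by ring
  rw [Finset.sum_congr rfl fun k _ => key k, hsum] at hlhs
  simp only [coef_eq, card_Af]
  rw [show ∑ χ : IrrCharacter G, ((648 : ℕ) : ℂ)⁻¹ * (∑ k : Af, (χ : G → ℂ) (S.φ k) *
      toC (vfun i k)) * (w χ / (χ : G → ℂ) 1) = ((648 : ℕ) : ℂ)⁻¹ * ∑ χ : IrrCharacter G,
      (∑ k : Af, (χ : G → ℂ) (S.φ k) * toC (vfun i k)) * (w χ / (χ : G → ℂ) 1) by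
    rw [Finset.mul_sum]; exact Finset.sum_congr rfl fun χ _ => by ring,
    mul_left_comm, ← hlhs]
  push_cast
  ring

end Emb

end CfsgLib.AltNineCube
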