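import Cfsg.Agent.AltNineCube.Classes
import Cfsg.Agent.TIThree.Cube.Model

/-!
# Degree two representations of `3^3 : S4` are trivial on `3^3 : 2^2`
-/

set_option autoImplicit false
set_option maxRecDepth 20000

namespace CfsgLib.AltNineCube

open CfsgLib.TIThree

/-- Matrices commuting with a matrix of size two which is not scalar commute. -/
theorem comm_of_not_scalar {T A B : Matrix (Fin 2) (Fin 2) ℂ}
    (hT : ¬ (T 0 1 = 0 ∧ T 1 0 = 0 ∧ T 0 0 = T 1 1)) (hA : A * T = T * A) (hB : B * T = T * B) :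
    A * B = B * A := by
  have a1 := congrFun (congrFun hA 0) 0
  have a2 := congrFun (congrFun hA 0) 1
  have a3 := congrFun (congrFun hA 1) 0
  have b1 := congrFun (congrFun hB 0) 0
  have b2 := congrFun (congrFun hB 0) 1
  have b3 := congrFun (congrFun hB 1) 0
  simp only [Matrix.mul_apply, Fin.sum_univ_two] at a1 a2 a3 b1 b2 b3
  ext i j
  fin_cases i <;> fin_cases j <;> simp only [Matrix.mul_apply, Fin.sum_univ_two] <;>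
    simp only [Fin.zero_eta, Fin.mk_one] <;>
    (by_cases h1 : T 0 1 = 0
     · by_cases h2 : T 1 0 = 0
       · have h3 : T 0 0 - T 1 1 ≠ 0 := fun e => hT ⟨h1, h2, by linear_combination e⟩
         rw [h1] at a2 b2; rw [h2] at a3 b3
         have a01 : A 0 1 = 0 := mul_left_cancel₀ h3 (by linear_combination (-1 : ℂ) * a2)
         have a10 : A 1 0 = 0 := mul_left_cancel₀ h3 (by linear_combination a3)
         have b01 : B 0 1 = 0 := mul_left_cancel₀ h3 (by linear_combination (-1 : ℂ) * b2)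
         have b10 : B 1 0 = 0 := mul_left_cancel₀ h3 (by linear_combination b3)
         simp [a01, a10, b01, b10, mul_comm]
       · refine mul_left_cancel₀ h2 ?_
         grind
     · refine mul_left_cancel₀ h1 ?_
       grind)

namespace Af

/-- The rotation of the blocks. -/
def rot : Af := ⟨0, 0, 0, 10⟩

/-- The linear part is in the four-group of even sign changes. -/
def Low (k : Af) : Prop := k.m = 0 ∨ k.m = 1 ∨ k.m = 4 ∨ k.m = 5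

instance (k : Af) : Decidable k.Low := by unfold Low; infer_instance

theorem low_words : ∀ k : Af, k.Low → ∃ a b c : Fin 3, ∃ p q : Fin 2,
    k = (⟨1, 0, 0, 0⟩ : Af) ^ (a : ℕ) * (⟨0, 1, 0, 0⟩ : Af) ^ (b : ℕ) *
      (⟨0, 0, 1, 0⟩ : Af) ^ (c : ℕ) * (⟨0, 0, 0, 1⟩ : Af) ^ (p : ℕ) *
      (⟨0, 0, 0, 4⟩ : Af) ^ (q : ℕ) := by decide +kernel

theorem relations :
    (⟨0, 0, 0, 4⟩ : Af) * ⟨1, 0, 0, 0⟩ = ⟨1, 0, 0, 0⟩⁻¹ * ⟨0, 0, 0, 4⟩ ∧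
    (⟨0, 0, 0, 1⟩ : Af) * ⟨1, 0, 0, 0⟩ = ⟨1, 0, 0, 0⟩ * ⟨0, 0, 0, 1⟩ ∧
    (⟨0, 1, 0, 0⟩ : Af) * ⟨1, 0, 0, 0⟩ = ⟨1, 0, 0, 0⟩ * ⟨0, 1, 0, 0⟩ ∧
    (⟨0, 0, 0, 1⟩ : Af) * ⟨0, 1, 0, 0⟩ = ⟨0, 1, 0, 0⟩⁻¹ * ⟨0, 0, 0, 1⟩ ∧
    (⟨1, 0, 0, 0⟩ : Af) ^ 3 = 1 ∧ (⟨0, 1, 0, 0⟩ : Af) ^ 3 = 1 ∧
    (∃ g : Af, g * ⟨0, 1, 0, 0⟩ * g⁻¹ = ⟨1, 0, 0, 0⟩) ∧
    (∃ g : Af, g * ⟨1, 0, 0, 0⟩ * g⁻¹ = ⟨0, 0, 1, 0⟩) ∧
    (∃ g : Af, g * ⟨0, 0, 0, 1⟩ * g⁻¹ = ⟨0, 0, 0, 4⟩) ∧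
    (∃ g : Af, g * ⟨0, 0, 0, 1⟩ * g⁻¹ = ⟨0, 0, 0, 5⟩) ∧
    (⟨0, 0, 0, 1⟩ : Af) * ⟨0, 0, 0, 4⟩ = ⟨0, 0, 0, 5⟩ ∧
    (⟨0, 0, 0, 4⟩ : Af) * ⟨0, 0, 0, 5⟩ = ⟨0, 0, 0, 1⟩ ∧
    (⟨0, 0, 0, 4⟩ : Af) * ⟨0, 0, 0, 1⟩ = ⟨0, 0, 0, 1⟩ * ⟨0, 0, 0, 4⟩ ∧
    (⟨0, 0, 0, 2⟩ : Af) * ⟨0, 0, 0, 1⟩ = ⟨0, 0, 0, 1⟩ * ⟨0, 0, 0, 2⟩ ∧
    (⟨0, 0, 0, 2⟩ : Af) * ⟨0, 0, 0, 4⟩ = ⟨0, 0, 0, 5⟩ * ⟨0, 0, 0, 2⟩ ∧
    (⟨0, 0, 0, 4⟩ : Af) ^ 2 = 1 := by
  decide +kernel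

end Af

/-- A homomorphism to matrices of size two is trivial on the low part. -/
theorem hom_low (f : Af →* Matrix (Fin 2) (Fin 2) ℂ) {k : Af} (hk : k.Low) : f k = 1 := by
  obtain ⟨r1, r2, r3, r4, c1, c2, ⟨g2, hg2⟩, ⟨g3, hg3⟩, ⟨g4, hg4⟩, ⟨g5, hg5⟩, v5, v1, q1, q2, q3,
    s4⟩ := Af.relations
  have hinvr : ∀ x : Af, f x * f x⁻¹ = 1 := fun x => by rw [← map_mul, mul_inv_cancel, map_one]
  have hconj : ∀ {g x y : Af}, g * x * g⁻¹ = y → f x = 1 → f y = 1 := fun {g x y} e h => by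
    rw [← e, map_mul, map_mul, h, mul_one, hinvr]
  have cancel : ∀ {P Q : Matrix (Fin 2) (Fin 2) ℂ} (x : Af), P * f x = Q * f x → P = Q :=
    fun {P Q} x h => by
    have := congrArg (fun M => M * f x⁻¹) h
    simpa [mul_assoc, hinvr] using this
  have inv_one : ∀ {x : Af}, x ^ 3 = 1 → f x = f x⁻¹ → f x = 1 := fun {x} h3 he => by
    have h2 : f x * f x = 1 := by
      conv_lhs => arg 2; rw [he]
      exact hinvr x
    have h' : f x * f x * f x = 1 := by rw [← map_mul, ← map_mul, ← pow_two, ← pow_succ, h3, map_one]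
    rwa [h2, one_mul] at h'
  have scalar_comm : ∀ {T : Matrix (Fin 2) (Fin 2) ℂ}, T 0 1 = 0 ∧ T 1 0 = 0 ∧ T 0 0 = T 1 1 →
      ∀ M, M * T = T * M := by
    rintro T ⟨h1, h2, h3⟩ M
    have hd : T = T 1 1 • (1 : Matrix (Fin 2) (Fin 2) ℂ) := by
      ext i j
      fin_cases i <;> fin_cases j <;> simp [h1, h2, h3]
    rw [hd, Algebra.mul_smul_comm, Algebra.smul_mul_assoc, mul_one, one_mul]
  -- translations
  have e1 : f (⟨1, 0, 0, 0⟩ : Af) = 1 := by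
    set T := f (⟨1, 0, 0, 0⟩ : Af) with hT
    by_cases h : T 0 1 = 0 ∧ T 1 0 = 0 ∧ T 0 0 = T 1 1
    · refine inv_one c1 (cancel (⟨0, 0, 0, 4⟩ : Af) ?_)
      rw [← scalar_comm h, ← map_mul, r1, map_mul]
    · refine hconj hg2 (inv_one c2 (cancel (⟨0, 0, 0, 1⟩ : Af) ?_))
      rw [← comm_of_not_scalar h (by rw [hT, ← map_mul, r2, map_mul])
        (by rw [hT, ← map_mul, r3, map_mul]), ← map_mul, r4, map_mul]
  -- sign changes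
  have w1 : f (⟨0, 0, 0, 1⟩ : Af) = 1 := by
    set T := f (⟨0, 0, 0, 1⟩ : Af) with hT
    by_cases h : T 0 1 = 0 ∧ T 1 0 = 0 ∧ T 0 0 = T 1 1
    · have h4 : f (⟨0, 0, 0, 4⟩ : Af) = T := by
        rw [← hg4, map_mul, map_mul, scalar_comm h, mul_assoc, hinvr, mul_one]
      have h5 : f (⟨0, 0, 0, 5⟩ : Af) = T := by
        rw [← hg5, map_mul, map_mul, scalar_comm h, mul_assoc, hinvr, mul_one]
      have hsq : T * T = 1 := by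
        calc T * T = f (⟨0, 0, 0, 4⟩ : Af) * f ⟨0, 0, 0, 4⟩ := by rw [h4]
        _ = 1 := by rw [← map_mul, ← pow_two, s4, map_one]
      calc T = f (⟨0, 0, 0, 5⟩ : Af) := h5.symm
      _ = T * f (⟨0, 0, 0, 4⟩ : Af) := by rw [hT, ← map_mul, v5]
      _ = 1 := by rw [h4, hsq]
    · have hc := comm_of_not_scalar h (A := f (⟨0, 0, 0, 2⟩ : Af)) (B := f (⟨0, 0, 0, 4⟩ : Af))
        (by rw [hT, ← map_mul, q2, map_mul]) (by rw [hT, ← map_mul, q1, map_mul])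
      have e45 : f (⟨0, 0, 0, 4⟩ : Af) = f ⟨0, 0, 0, 5⟩ := by
        refine cancel (⟨0, 0, 0, 2⟩ : Af) ?_
        rw [← hc, ← map_mul, q3, map_mul]
      rw [hT, ← v1, map_mul, ← e45, ← map_mul, ← pow_two, s4, map_one]
  obtain ⟨a, b, c, p, q, rfl⟩ := Af.low_words k hk
  have e2 : f (⟨0, 1, 0, 0⟩ : Af) = 1 := hconj (g := g2⁻¹) (by rw [← hg2]; group) e1
  have e3 : f (⟨0, 0, 1, 0⟩ : Af) = 1 := hconj hg3 e1
  have e4 : f (⟨0, 0, 0, 4⟩ : Af) = 1 := hconj hg4 w1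
  simp [e1, e2, e3, w1, e4]

/-- The subgroup `3^3 : 2^2`. -/
def lowFun (x : Cube.Mo) : Af :=
  ⟨x.a, x.b, x.c, if x.p then (if x.q then 5 else 4) else (if x.q then 1 else 0)⟩

theorem lowFun_mul : ∀ x y : Cube.Mo, lowFun (x * y) = lowFun x * lowFun y := by decide +kernel

theorem lowFun_surj : ∀ k : Af, k.Low → ∃ x : Cube.Mo, lowFun x = k := by decide +kernel

theorem lowFun_low : ∀ x : Cube.Mo, (lowFun x).Low := by decide +kernel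

theorem lowFun_injective : Function.Injective lowFun := by
  intro ⟨a, b, c, p, q⟩ ⟨a', b', c', p', q'⟩ h
  simp only [lowFun, Af.mk.injEq] at h
  obtain ⟨rfl, rfl, rfl, h⟩ := h
  cases p <;> cases q <;> cases p' <;> cases q' <;> simp_all (config := { decide := true })

/-- The inclusion of `3^3 : 2^2`. -/
def lowHom : Cube.Mo →* Af := MonoidHom.mk' lowFun lowFun_mul

end CfsgLib.AltNineCube
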