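import Cfsg.Agent.AltNineCube.Decomp
import Cfsg.Agent.AltNineCube.Linear
import Cfsg.Agent.TIThree.Cube.Perm

/-!
# An embedded `3^3 : S4` with these properties is the whole group
-/

set_option autoImplicit false
set_option maxRecDepth 20000

namespace CfsgLib.AltNineCube

open Cfsg CfsgLib.Chars CfsgLib.TIThree

universe u

variable {G : Type u} [Group G] [Finite G]

namespace Af

theorem low_or : ∀ k : Af, k.Low ∨ (k * rot⁻¹).Low ∨ (k * rot).Low ∨
    (k * rot * k⁻¹ * rot⁻¹ * rot⁻¹).Low ∨ (k * rot * k⁻¹ * rot⁻¹ * rot).Low := by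
  decide +kernel

theorem first_supp : ∀ k : Af, vTab 0 (cls k) ≠ 0 →
    k.Low ∨ (k * rot⁻¹).Low ∨ (k * rot).Low := by decide +kernel

theorem low_of_trans (k : Af) (h : k.m = 0) : k.Low := Or.inl h

theorem trans_conj : ∀ k x : Af, x.m = 0 → (k * x * k⁻¹).m = 0 := by
  intro k x hx
  have key : ∀ a b : Fin 24, lmul (lmul a 0) b = lmul a b := by decide +kernel
  have key2 : ∀ a : Fin 24, lmul a (linv a) = 0 := by decide +kernel
  show lmul (lmul k.m x.m) (linv k.m) = 0
  rw [hx, key, key2]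

/-- The translations. -/
def trans : Subgroup Af where
  carrier := {x | x.m = 0}
  one_mem' := rfl
  mul_mem' := fun {a b} ha hb => by
    show lmul a.m b.m = 0
    rw [ha, hb]
    rfl
  inv_mem' := fun {a} ha => by
    show linv a.m = 0
    rw [ha]
    rfl

theorem card_trans_group : Nat.card trans = 27 := by
  have : (Finset.univ.filter fun x : Af => x.m = 0).card = 27 := by decide +kernel
  rw [← this, ← Fintype.card_subtype, ← Nat.card_eq_fintype_card]
  rfl

end Af

/-- A normal subgroup meeting the embedded group in `3^3 : 2^2`. -/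
theorem Emb.exists_normal (S : Emb G) :
    ∃ L : Subgroup G, L.Normal ∧ ∀ k : Af, S.φ k ∈ L ↔ k.Low := by
  classical
  haveI := Fintype.ofFinite G
  obtain ⟨χ, h1, hc⟩ := S.exists_degree_two
  obtain ⟨n, ρ, -, hρ⟩ := χ.2
  obtain rfl : n = 2 := by
    have h : (χ : G → ℂ) 1 = (n : ℂ) := by
      rw [← hρ, Representation.char_one]
      simp
    exact_mod_cast h.symm.trans h1
  let e : Module.End ℂ (Fin 2 → ℂ) ≃ₐ[ℂ] Matrix (Fin 2) (Fin 2) ℂ :=
    LinearMap.toMatrixAlgEquiv'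
  let f : Af →* Matrix (Fin 2) (Fin 2) ℂ :=
    (e.toAlgHom.toMonoidHom.comp (ρ : G →* Module.End ℂ (Fin 2 → ℂ))).comp S.φ
  set L : Subgroup G := MonoidHom.ker (ρ : G →* Module.End ℂ (Fin 2 → ℂ)) with hL
  haveI hLn : L.Normal := MonoidHom.normal_ker _
  have hlow : ∀ k : Af, k.Low → S.φ k ∈ L := fun k hk => by
    rw [hL, MonoidHom.mem_ker]
    exact e.injective ((hom_low f hk).trans (map_one e).symm)
  have hval : ∀ g ∈ L, (χ : G → ℂ) g = 2 := fun g hg => by
    rw [← h1, ← hρ]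
    show LinearMap.trace ℂ (Fin 2 → ℂ) (ρ g) = LinearMap.trace ℂ (Fin 2 → ℂ) (ρ 1)
    rw [show ρ g = ρ 1 from (MonoidHom.mem_ker.mp hg).trans (MonoidHom.map_one ρ).symm]
  have hsplit : ∀ k : Af, S.φ (k * Af.rot⁻¹) ∈ L ∨ S.φ (k * Af.rot) ∈ L →
      S.φ k ∈ L → S.φ Af.rot ∈ L := by
    intro k h hk
    rcases h with h | h
    · rw [map_mul, map_inv] at h
      exact inv_mem_iff.mp ((mul_mem_cancel_left hk).mp h)
    · rw [map_mul] at h
      exact (mul_mem_cancel_left hk).mp h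
  have hrot : S.φ Af.rot ∉ L := by
    intro hr
    have hall : ∀ k : Af, vTab 0 (Af.cls k) ≠ 0 → (χ : G → ℂ) (S.φ k) = 2 := by
      intro k hk
      refine hval _ ?_
      rcases Af.first_supp k hk with h | h | h
      · exact hlow k h
      · have := mul_mem (hlow _ h) hr
        rwa [← map_mul, inv_mul_cancel_right] at this
      · have := mul_mem (hlow _ h) (inv_mem hr)
        rwa [← map_inv, ← map_mul, mul_inv_cancel_right] at this
    have e2 : ∀ k : Af, (χ : G → ℂ) (S.φ k) * toC (vfun 0 k) = 2 * toC (vfun 0 k) := by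
      intro k
      by_cases hk : vTab 0 (Af.cls k) = 0
      · simp [vfun, hk]
      · rw [hall k hk]
    rw [coef_eq, Finset.sum_congr rfl fun k _ => e2 k, ← Finset.mul_sum, ← map_sum,
      show (∑ x, vfun 0 x) = ∑ c, (Af.size c : ℤ√3) * vTab 0 c from Af.sum_cls (vTab 0), base_eq,
      toC_int] at hc
    simp [baseTab] at hc
  refine ⟨L, hLn, fun k => ⟨fun hk => ?_, hlow k⟩⟩
  by_contra hn
  refine hrot ?_
  have hcomm : S.φ (k * Af.rot * k⁻¹ * Af.rot⁻¹) ∈ L := by
    have h3 := hLn.conj_mem _ (inv_mem hk) (S.φ Af.rot)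
    simp only [map_mul, map_inv]
    rw [show S.φ k * S.φ Af.rot * (S.φ k)⁻¹ * (S.φ Af.rot)⁻¹ =
      S.φ k * (S.φ Af.rot * (S.φ k)⁻¹ * (S.φ Af.rot)⁻¹) by group]
    exact mul_mem hk h3
  rcases Af.low_or k with h | h | h | h | h
  · exact absurd h hn
  · exact hsplit k (Or.inl (hlow _ h)) hk
  · exact hsplit k (Or.inr (hlow _ h)) hk
  · exact hsplit _ (Or.inl (hlow _ h)) hcomm
  · exact hsplit _ (Or.inr (hlow _ h)) hcomm

/-- An embedded `3^3 : S4` with translation centralisers inside and strongly closed translations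
is the whole group. -/
theorem Emb.range_eq_top (S : Emb G) : S.φ.range = ⊤ := by
  classical
  obtain ⟨L, hLn, hL⟩ := S.exists_normal
  have t1 : ((⟨1, 0, 0, 0⟩ : Af).m = 0) ∧ Af.cls (⟨1, 0, 0, 0⟩ : Af) ∈ Af.dset := by decide
  let ψ : Cube.Mo →* L := (S.φ.comp lowHom).codRestrict L fun x => (hL _).mpr (lowFun_low x)
  have hψ : Function.Injective ψ := fun x y h =>
    lowFun_injective (S.inj (congrArg Subtype.val h))
  have hψr : ∀ g : L, g ∈ ψ.range ↔ (g : G) ∈ S.φ.range := by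
    intro g
    constructor
    · rintro ⟨x, rfl⟩
      exact ⟨lowFun x, rfl⟩
    · rintro ⟨k, hk⟩
      obtain ⟨x, hx⟩ := lowFun_surj k ((hL k).mp (hk ▸ g.2))
      refine ⟨x, Subtype.ext ?_⟩
      show S.φ (lowFun x) = g
      rw [hx, hk]
  set T : Subgroup L := (Af.trans.map S.φ).subgroupOf L with hT
  have hTle : Af.trans.map S.φ ≤ L := by
    rintro _ ⟨x, hx, rfl⟩
    exact (hL x).mpr (Af.low_of_trans x hx)
  have htop : ψ.range = ⊤ := by
    refine Cube.eq_top ψ hψ T ?_ ?_ ?_ ?_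
    · intro g hg
      obtain ⟨x, -, hx⟩ := Subgroup.mem_subgroupOf.mp hg
      exact (hψr g).mpr ⟨x, hx⟩
    · rw [hT, Nat.card_congr (Subgroup.subgroupOfEquivOfLe hTle).toEquiv,
        Subgroup.card_map_of_injective S.inj, Af.card_trans_group]
    · ext g
      constructor
      · intro hg
        have hmem : (⟨S.φ ⟨1, 0, 0, 0⟩, hTle ⟨_, t1.1, rfl⟩⟩ : L) ∈ T :=
          Subgroup.mem_subgroupOf.mpr ⟨_, t1.1, rfl⟩
        obtain ⟨y, -, hy⟩ := Subgroup.mem_subgroupOf.mp
          ((Subgroup.mem_normalizer_iff.mp hg _).mp hmem)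
        exact (hψr g).mpr (S.mem_range t1.2 (g := (g : G)) (l := y) hy.symm)
      · intro hg
        obtain ⟨k, hk⟩ := (hψr g).mp hg
        refine Subgroup.mem_normalizer_iff.mpr fun x => ?_
        simp only [hT, Subgroup.mem_subgroupOf, Subgroup.coe_mul, InvMemClass.coe_inv, ← hk]
        constructor
        · rintro ⟨y, hy, e⟩
          exact ⟨k * y * k⁻¹, Af.trans_conj k y hy, by rw [map_mul, map_mul, map_inv, e]⟩
        · rintro ⟨y, hy, e⟩
          refine ⟨k⁻¹ * y * k⁻¹⁻¹, Af.trans_conj k⁻¹ y hy, ?_⟩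
          rw [map_mul, map_mul, e, inv_inv, map_inv]
          group
    · intro t ht ht1 g hg
      obtain ⟨x, hx, e⟩ := Subgroup.mem_subgroupOf.mp ht
      have hx1 : x ≠ 1 := by
        rintro rfl
        exact ht1 (Subtype.ext (by rw [← e, map_one]; rfl))
      refine (hψr g).mpr (S.cent x hx hx1 (g : G) ?_)
      have := congrArg Subtype.val (Subgroup.mem_centralizer_singleton_iff.mp hg)
      simp only [Subgroup.coe_mul] at this
      rw [e, this]
  refine eq_top_iff.mpr fun g _ => ?_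
  have hgl : g * S.φ ⟨1, 0, 0, 0⟩ * g⁻¹ ∈ L :=
    hLn.conj_mem _ ((hL _).mpr (Af.low_of_trans _ t1.1)) g
  have hr : (⟨_, hgl⟩ : L) ∈ ψ.range := by rw [htop]; trivial
  obtain ⟨y, hy⟩ := (hψr _).mp hr
  exact S.mem_range t1.2 hy.symm

end CfsgLib.AltNineCube
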