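import Cfsg.Agent.AltNineCube.Data
import Cfsg.Agent.TIThree.Model

/-!
# The group `3^3 : S4` of monomial affine maps and its monomial characters
-/

set_option autoImplicit false
set_option maxRecDepth 20000

namespace CfsgLib.AltNineCube

open Cfsg

/-- An element: a translation and a linear part. -/
structure Af where
  /-- first coordinate -/
  a : Fin 3
  /-- second coordinate -/
  b : Fin 3
  /-- third coordinate -/
  c : Fin 3
  /-- linear part -/
  m : Fin 24
deriving DecidableEq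

/-- Translations. -/
abbrev Vec : Type := Fin 3 × Fin 3 × Fin 3

/-- Read a natural number from a table. -/
def tab (t : List (List ℕ)) (i j : ℕ) : ℕ := (t.getD i []).getD j 0

/-- Product of linear parts. -/
def lmul (m m' : Fin 24) : Fin 24 := Fin.ofNat 24 (tab Data.mulTab m m')

/-- Inverse of a linear part. -/
def linv (m : Fin 24) : Fin 24 := Fin.ofNat 24 (Data.invTab.getD m 0)

/-- A coordinate of a vector. -/
def nth (v : Vec) : ℕ → Fin 3
  | 0 => v.1
  | 1 => v.2.1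
  | _ => v.2.2

/-- The image coordinate. -/
def imCoord (m : Fin 24) (v : Vec) (j : ℕ) : Fin 3 :=
  let i := tab Data.permTab (linv m) j
  if tab Data.negTab m i = 1 then -nth v i else nth v i

/-- The action of linear parts on translations. -/
def lact (m : Fin 24) (v : Vec) : Vec := (imCoord m v 0, imCoord m v 1, imCoord m v 2)

namespace Af

/-- Coordinates as a product. -/
def equivProd : Af ≃ Fin 3 × Fin 3 × Fin 3 × Fin 24 where
  toFun x := (x.a, x.b, x.c, x.m)
  invFun x := ⟨x.1, x.2.1, x.2.2.1, x.2.2.2⟩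
  left_inv _ := rfl
  right_inv _ := rfl

instance : Fintype Af := Fintype.ofEquiv _ equivProd.symm

/-- The translation part. -/
def vec (x : Af) : Vec := (x.a, x.b, x.c)

/-- An element from its parts. -/
def mk' (v : Vec) (m : Fin 24) : Af := ⟨v.1, v.2.1, v.2.2, m⟩

instance : Mul Af := ⟨fun x y => mk' (x.vec + lact x.m y.vec) (lmul x.m y.m)⟩

instance : One Af := ⟨⟨0, 0, 0, 0⟩⟩

instance : Inv Af := ⟨fun x => mk' (lact (linv x.m) (-x.vec)) (linv x.m)⟩

theorem vec_mk' (v : Vec) (m : Fin 24) : (mk' v m).vec = v := rfl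

theorem m_mk' (v : Vec) (m : Fin 24) : (mk' v m).m = m := rfl

theorem mul_def (x y : Af) : x * y = mk' (x.vec + lact x.m y.vec) (lmul x.m y.m) := rfl

theorem lmul_assoc : ∀ p q r : Fin 24, lmul (lmul p q) r = lmul p (lmul q r) := by decide +kernel

theorem lact_add : ∀ m : Fin 24, ∀ v w : Vec, lact m (v + w) = lact m v + lact m w := by
  decide +kernel

theorem lact_lmul : ∀ m m' : Fin 24, ∀ v : Vec, lact (lmul m m') v = lact m (lact m' v) := by
  decide +kernel

theorem one_mul' : ∀ x : Af, 1 * x = x := by decide +kernel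

theorem inv_mul' : ∀ x : Af, x⁻¹ * x = 1 := by decide +kernel

theorem mul_assoc' (x y z : Af) : x * y * z = x * (y * z) := by
  simp only [mul_def, vec_mk', m_mk', lmul_assoc, lact_add, lact_lmul, add_assoc]

instance : Group Af := Group.ofLeftAxioms mul_assoc' one_mul' inv_mul'

end Af

/-- Data of a monomial character. -/
structure Mon where
  /-- the degree -/
  n : ℕ
  /-- permutations, exponents, dual vectors -/
  data : List (List ℕ) × List (List ℕ) × List (List ℕ)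
  pos : n ≠ 0

namespace Mon

variable (M : Mon)

/-- The permutation of the coordinates. -/
def perm (m : Fin 24) (j : Fin M.n) : Fin M.n :=
  ⟨tab M.data.1 m j % M.n, Nat.mod_lt _ (Nat.pos_of_ne_zero M.pos)⟩

/-- The exponent of the linear part. -/
def lex (m : Fin 24) (j : Fin M.n) : ZMod 12 := (tab M.data.2.1 m j : ZMod 12)

/-- The dual vector applied to a translation. -/
def pair (j : Fin M.n) (v : Vec) : ZMod 12 :=
  ((4 * (tab M.data.2.2 j 0 * (v.1 : ℕ) + tab M.data.2.2 j 1 * (v.2.1 : ℕ) +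
    tab M.data.2.2 j 2 * (v.2.2 : ℕ)) : ℕ) : ZMod 12)

/-- The exponent at an element. -/
def ex (x : Af) (j : Fin M.n) : ZMod 12 := M.pair (M.perm x.m j) x.vec + M.lex x.m j

/-- The consistency conditions. -/
def Ok : Prop :=
  (∀ m m' : Fin 24, ∀ j, M.perm (lmul m m') j = M.perm m (M.perm m' j) ∧
    M.lex (lmul m m') j = M.lex m (M.perm m' j) + M.lex m' j) ∧
  (∀ m : Fin 24, ∀ v : Vec, ∀ j, M.pair (M.perm m j) (lact m v) = M.pair j v) ∧
  (∀ j, ∀ v w : Vec, M.pair j (v + w) = M.pair j v + M.pair j w) ∧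
  (∀ j, M.perm 0 j = j ∧ M.lex 0 j = 0 ∧ M.pair j (0, 0, 0) = 0)

instance : Decidable M.Ok := by unfold Ok; infer_instance

variable {M}

theorem perm_mul (h : M.Ok) (x y : Af) (j : Fin M.n) :
    M.perm (x * y).m j = M.perm x.m (M.perm y.m j) := (h.1 _ _ j).1

theorem ex_mul (h : M.Ok) (x y : Af) (j : Fin M.n) :
    M.ex (x * y) j = M.ex x (M.perm y.m j) + M.ex y j := by
  simp only [ex, Af.mul_def, Af.vec_mk', Af.m_mk', (h.1 x.m y.m j).1, (h.1 x.m y.m j).2, h.2.2.1,
    h.2.1]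
  ring

/-- A twelfth root of unity. -/
noncomputable def zeta : ℂ := ((Real.sqrt 3 : ℂ) + Complex.I) / 2

theorem sqrt_three_sq : (Real.sqrt 3 : ℂ) * (Real.sqrt 3 : ℂ) = 3 := by
  rw [← Complex.ofReal_mul, Real.mul_self_sqrt (by norm_num)]; norm_num

theorem zeta_sq : zeta ^ 2 = (1 + (Real.sqrt 3 : ℂ) * Complex.I) / 2 := by
  rw [zeta]; linear_combination (1 / 4 : ℂ) * sqrt_three_sq + (1 / 4 : ℂ) * Complex.I_mul_I

theorem zeta_three : zeta ^ 3 = Complex.I := by
  rw [pow_succ, zeta_sq, zeta]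
  linear_combination (Complex.I / 4) * sqrt_three_sq + ((Real.sqrt 3 : ℂ) / 4) * Complex.I_mul_I

theorem zeta_six : zeta ^ 6 = -1 := by
  rw [show 6 = 3 * 2 from rfl, pow_mul, zeta_three, pow_two, Complex.I_mul_I]

theorem zeta_twelve : zeta ^ 12 = 1 := by
  rw [show 12 = 6 * 2 from rfl, pow_mul, zeta_six]; ring

/-- A power of the root of unity with exponent modulo twelve. -/
noncomputable def zpw (e : ZMod 12) : ℂ := zeta ^ e.val

theorem zpw_add (e f : ZMod 12) : zpw (e + f) = zpw e * zpw f := by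
  rw [zpw, zpw, zpw, ← pow_add, ZMod.val_add]
  conv_rhs => rw [← Nat.mod_add_div (e.val + f.val) 12, pow_add, pow_mul, zeta_twelve, one_pow,
    mul_one]

/-- The matrix of an element. -/
noncomputable def mat (M : Mon) (x : Af) : Matrix (Fin M.n) (Fin M.n) ℂ :=
  Matrix.of fun i j => if M.perm x.m j = i then zpw (M.ex x j) else 0

theorem mat_mul (h : M.Ok) (x y : Af) : M.mat (x * y) = M.mat x * M.mat y := by
  ext i k
  rw [Matrix.mul_apply, Finset.sum_eq_single (M.perm y.m k)]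
  · simp only [mat, Matrix.of_apply, perm_mul h, ex_mul h, zpw_add, if_pos rfl]
    split_ifs <;> simp
  · intro j _ hj
    simp [mat, Ne.symm hj]
  · intro hk
    exact absurd (Finset.mem_univ _) hk

theorem mat_one (h : M.Ok) : M.mat 1 = 1 := by
  ext i j
  obtain ⟨h1, h2, h3⟩ := h.2.2.2 j
  simp only [mat, Matrix.of_apply, Matrix.one_apply]
  rw [show (1 : Af).m = 0 from rfl, h1, show M.ex 1 j = 0 by
    rw [ex, show (1 : Af).m = 0 from rfl, h1, h2, show (1 : Af).vec = (0, 0, 0) from rfl, h3, add_zero]]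
  simp [zpw, eq_comm]

/-- The monomial representation. -/
noncomputable def rep (h : M.Ok) : Representation ℂ Af (Fin M.n → ℂ) where
  toFun x := Matrix.toLinAlgEquiv' (M.mat x)
  map_one' := by rw [mat_one h, map_one]
  map_mul' x y := by rw [mat_mul h, map_mul]

/-- The number of fixed coordinates with a given exponent. -/
def cnt (M : Mon) (x : Af) (e : ZMod 12) : ℤ :=
  ((Finset.univ.filter fun j => M.perm x.m j = j ∧ M.ex x j = e).card : ℕ)

/-- The exponents occur symmetrically. -/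
def Sym (M : Mon) : Prop := ∀ x : Af, ∀ e : ZMod 12, M.cnt x e = M.cnt x (-e)

/-- The value in `ℤ√3`. -/
def val (M : Mon) (x : Af) : ℤ√3 :=
  ⟨M.cnt x 0 - M.cnt x 6 + M.cnt x 2 - M.cnt x 4, M.cnt x 1 - M.cnt x 5⟩

end Mon

/-- The inclusion of `ℤ√3`. -/
noncomputable def toC : ℤ√3 →+* ℂ :=
  Zsqrtd.lift ⟨(Real.sqrt 3 : ℂ), by rw [Mon.sqrt_three_sq]; norm_num⟩

theorem toC_apply (z : ℤ√3) : toC z = (z.re : ℂ) + (z.im : ℂ) * (Real.sqrt 3 : ℂ) := rfl

theorem conj_toC (z : ℤ√3) : starRingEnd ℂ (toC z) = toC z := by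
  simp [toC_apply, Complex.conj_ofReal]

theorem zmod_sum (f : ZMod 12 → ℂ) : ∑ e, f e = f 0 + f 1 + f 2 + f 3 + f 4 + f 5 + f 6 + f 7 +
    f 8 + f 9 + f 10 + f 11 := by
  have h : (Finset.univ : Finset (ZMod 12)) = {0, 1, 2, 3, 4, 5, 6, 7, 8, 9, 10, 11} := by decide
  rw [h]
  repeat rw [Finset.sum_insert (by decide)]
  rw [Finset.sum_singleton]
  simp only [add_assoc]

theorem Mon.isCharacter {M : Mon} (h : M.Ok) (hs : M.Sym) :
    IsCharacter Af (fun x => toC (M.val x)) := by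
  refine ⟨M.n, Mon.rep h, funext fun x => ?_⟩
  have htr : (Mon.rep h).character x = Matrix.trace (M.mat x) := by
    show LinearMap.trace ℂ (Fin M.n → ℂ) (Matrix.toLinAlgEquiv' (M.mat x)) = _
    exact Matrix.trace_toLin'_eq _
  rw [htr]
  have e1 : Matrix.trace (M.mat x) = ∑ e : ZMod 12, (M.cnt x e : ℂ) * Mon.zpw e := by
    simp only [Matrix.trace, Matrix.diag, Mon.mat, Matrix.of_apply, Mon.cnt, Finset.card_filter,
      Nat.cast_sum, Int.cast_sum, Finset.sum_mul, Nat.cast_ite, Int.cast_ite]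
    rw [Finset.sum_comm]
    refine Finset.sum_congr rfl fun j _ => ?_
    by_cases hj : M.perm x.m j = j
    · simp [hj]
    · simp [hj]
  have h1 := hs x 11
  have h2 := hs x 10
  have h3 := hs x 9
  have h4 := hs x 8
  have h5 := hs x 7
  rw [show -(11 : ZMod 12) = 1 by decide] at h1
  rw [show -(10 : ZMod 12) = 2 by decide] at h2
  rw [show -(9 : ZMod 12) = 3 by decide] at h3
  rw [show -(8 : ZMod 12) = 4 by decide] at h4
  rw [show -(7 : ZMod 12) = 5 by decide] at h5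
  rw [e1, zmod_sum, h1, h2, h3, h4, h5, toC_apply]
  have v0 : Mon.zpw 0 = 1 := pow_zero _
  have v1 : Mon.zpw 1 = Mon.zeta := pow_one _
  have v2 : Mon.zpw 2 = (1 + (Real.sqrt 3 : ℂ) * Complex.I) / 2 := Mon.zeta_sq
  have v3 : Mon.zpw 3 = Complex.I := Mon.zeta_three
  have v4 : Mon.zpw 4 = Mon.zpw 3 * Mon.zpw 1 := by rw [← Mon.zpw_add]; rfl
  have v5 : Mon.zpw 5 = Mon.zpw 3 * Mon.zpw 2 := by rw [← Mon.zpw_add]; rfl
  have v6 : Mon.zpw 6 = -1 := Mon.zeta_six
  have v7 : Mon.zpw 7 = -Mon.zpw 1 := by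
    rw [show Mon.zpw 7 = Mon.zpw 6 * Mon.zpw 1 by rw [← Mon.zpw_add]; rfl, v6]; ring
  have v8 : Mon.zpw 8 = -Mon.zpw 2 := by
    rw [show Mon.zpw 8 = Mon.zpw 6 * Mon.zpw 2 by rw [← Mon.zpw_add]; rfl, v6]; ring
  have v9 : Mon.zpw 9 = -Mon.zpw 3 := by
    rw [show Mon.zpw 9 = Mon.zpw 6 * Mon.zpw 3 by rw [← Mon.zpw_add]; rfl, v6]; ring
  have v10 : Mon.zpw 10 = -Mon.zpw 4 := by
    rw [show Mon.zpw 10 = Mon.zpw 6 * Mon.zpw 4 by rw [← Mon.zpw_add]; rfl, v6]; ring
  have v11 : Mon.zpw 11 = -Mon.zpw 5 := by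
    rw [show Mon.zpw 11 = Mon.zpw 6 * Mon.zpw 5 by rw [← Mon.zpw_add]; rfl, v6]; ring
  rw [v11, v10, v9, v8, v7, v6, v5, v4, v3, v2, v1, v0, Mon.zeta]
  simp only [Mon.val]
  push_cast
  linear_combination (-(1 : ℂ) / 2 * (M.cnt x 2 : ℂ) + (1 / 2 : ℂ) * (M.cnt x 4 : ℂ)
    + ((Real.sqrt 3 : ℂ) / 2) * ((M.cnt x 5 : ℂ) - M.cnt x 1)) * Complex.I_mul_I

end CfsgLib.AltNineCube
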