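import Cfsg.Agent.AltNineCube.Main
import Cfsg.Agent.LocalP.Basic

/-!
# The permutation model on nine points
-/

set_option autoImplicit false
set_option maxRecDepth 20000

namespace CfsgLib.AltNineCube

open CfsgLib.TIThree

/-- The negation bit. -/
def negb (m : Fin 24) (i : Fin 3) : Bool := tab Data.negTab m i == 1

/-- The image of a block. -/
def pblk (m : Fin 24) (i : Fin 3) : Fin 3 := Fin.ofNat 3 (tab Data.permTab m i)

/-- The point of a coordinate and a value. -/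
def pt (v : Fin 3 × Fin 3) : Fin 9 := ⟨3 * (v.1 : ℕ) + (v.2 : ℕ), by omega⟩

/-- The coordinates of a point. -/
def unpt (x : Fin 9) : Fin 3 × Fin 3 := (⟨(x : ℕ) / 3, by omega⟩, ⟨(x : ℕ) % 3, by omega⟩)

theorem pt_unpt : ∀ x, pt (unpt x) = x := by decide +kernel

theorem unpt_pt : ∀ v, unpt (pt v) = v := by decide +kernel

/-- The action on coordinates and values. -/
def actv (g : Af) (v : Fin 3 × Fin 3) : Fin 3 × Fin 3 :=
  (pblk g.m v.1, nth g.vec (pblk g.m v.1 : ℕ) + El.sg (negb g.m v.1) v.2)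

theorem pblk_lmul : ∀ m m' i, pblk (lmul m m') i = pblk m (pblk m' i) := by decide +kernel

theorem nth_lact : ∀ m, ∀ w : Vec, ∀ j, nth (lact m w) (pblk m j : ℕ) =
    El.sg (negb m j) (nth w (j : ℕ)) := by decide +kernel

theorem nth_add : ∀ (v w : Vec) (j : Fin 3), nth (v + w) (j : ℕ) = nth v j + nth w j := by
  rintro ⟨a, b, c⟩ ⟨a', b', c'⟩ j
  fin_cases j <;> rfl

theorem sg_negb : ∀ m m', ∀ i v, El.sg (negb (lmul m m') i) v =
    El.sg (negb m (pblk m' i)) (El.sg (negb m' i) v) := by decide +kernel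

theorem sg_add : ∀ b u v, El.sg b (u + v) = El.sg b u + El.sg b v := by decide +kernel

theorem actv_one : ∀ v, actv 1 v = v := by decide +kernel

theorem actv_mul (g h : Af) (v : Fin 3 × Fin 3) : actv (g * h) v = actv g (actv h v) := by
  simp only [actv, Af.mul_def, Af.vec_mk', Af.m_mk', pblk_lmul, nth_add, nth_lact, sg_negb,
    sg_add, add_assoc]

/-- The action on nine points. -/
def act9 (g : Af) (x : Fin 9) : Fin 9 := pt (actv g (unpt x))

theorem act9_mul (g h : Af) (x : Fin 9) : act9 (g * h) x = act9 g (act9 h x) := by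
  simp [act9, unpt_pt, actv_mul]

theorem act9_one (x : Fin 9) : act9 1 x = x := by simp [act9, actv_one, pt_unpt]

/-- The permutation representation. -/
def toPerm : Af →* Equiv.Perm (Fin 9) where
  toFun g :=
    { toFun := act9 g
      invFun := act9 g⁻¹
      left_inv := fun x => by rw [← act9_mul, inv_mul_cancel, act9_one]
      right_inv := fun x => by rw [← act9_mul, mul_inv_cancel, act9_one] }
  map_one' := Equiv.ext act9_one
  map_mul' g h := Equiv.ext (act9_mul g h)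

theorem toPerm_ker : ∀ g : Af, (∀ x, act9 g x = x) → g = 1 := by decide +kernel

theorem toPerm_injective : Function.Injective toPerm := by
  rw [injective_iff_map_eq_one]
  exact fun g hg => toPerm_ker g fun x => by
    show toPerm g x = x
    rw [hg]
    rfl

/-- The generators of the permutation group. -/
def pgen : Fin 4 → Af := ![⟨1, 0, 0, 0⟩, ⟨0, 0, 0, 10⟩, ⟨1, 1, 0, 5⟩, ⟨0, 0, 1, 8⟩]

/-- The generating permutations. -/
def perms : Fin 4 → Equiv.Perm (Fin 9) :=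
  ![Equiv.swap (0 : Fin 9) 1 * Equiv.swap 1 2,
    Equiv.swap (0 : Fin 9) 3 * Equiv.swap 3 6 * (Equiv.swap (1 : Fin 9) 4 * Equiv.swap 4 7) *
      (Equiv.swap (2 : Fin 9) 5 * Equiv.swap 5 8),
    Equiv.swap (0 : Fin 9) 1 * Equiv.swap 3 4,
    Equiv.swap (0 : Fin 9) 3 * Equiv.swap 1 4 * Equiv.swap 2 5 * Equiv.swap 6 7]

theorem act9_pgen : ∀ i x, act9 (pgen i) x = perms i x := by decide +kernel

theorem toPerm_pgen (i : Fin 4) : toPerm (pgen i) = perms i := Equiv.ext (act9_pgen i)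

theorem gen_words : ∀ i, ∃ w : Fin 4, ∃ a b c : Fin 3,
    Af.gen i = pgen 0 ^ (a : ℕ) * (pgen 1 * pgen 0 * pgen 1 ^ 2) ^ (b : ℕ) *
      (pgen 1 ^ 2 * pgen 0 * pgen 1) ^ (c : ℕ) * pgen w := by decide +kernel

theorem mem_of_pgen {H : Subgroup Af} (h : ∀ i, pgen i ∈ H) (k : Af) : k ∈ H := by
  induction k using Af.induction_gen with
  | h1 => exact one_mem H
  | hmul i x ih =>
    obtain ⟨w, a, b, c, e⟩ := gen_words i
    rw [e]
    exact mul_mem (mul_mem (mul_mem (mul_mem (pow_mem (h 0) _)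
      (pow_mem (mul_mem (mul_mem (h 1) (h 0)) (pow_mem (h 1) _)) _))
      (pow_mem (mul_mem (mul_mem (pow_mem (h 1) _) (h 0)) (h 1)) _)) (h w)) ih

theorem range_toPerm : toPerm.range = Subgroup.closure ({Equiv.swap (0 : Fin 9) 1 * Equiv.swap 1 2,
    Equiv.swap (0 : Fin 9) 3 * Equiv.swap 3 6 * (Equiv.swap (1 : Fin 9) 4 * Equiv.swap 4 7) *
      (Equiv.swap (2 : Fin 9) 5 * Equiv.swap 5 8),
    Equiv.swap (0 : Fin 9) 1 * Equiv.swap 3 4,
    Equiv.swap (0 : Fin 9) 3 * Equiv.swap 1 4 * Equiv.swap 2 5 * Equiv.swap 6 7} :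
      Set (Equiv.Perm (Fin 9))) := by
  apply le_antisymm
  · rintro _ ⟨k, rfl⟩
    refine mem_of_pgen (H := (Subgroup.closure _).comap toPerm) (fun i => ?_) k
    rw [Subgroup.mem_comap, toPerm_pgen]
    refine Subgroup.subset_closure ?_
    fin_cases i <;> simp [perms]
  · rw [Subgroup.closure_le]
    intro x hx
    simp only [Set.mem_insert_iff, Set.mem_singleton_iff] at hx
    rcases hx with rfl | rfl | rfl | rfl
    exacts [⟨pgen 0, toPerm_pgen 0⟩, ⟨pgen 1, toPerm_pgen 1⟩, ⟨pgen 2, toPerm_pgen 2⟩,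
      ⟨pgen 3, toPerm_pgen 3⟩]

theorem three_core_key : ∀ x : Af, x ^ 9 = 1 →
    (x⁻¹ * (⟨0, 0, 0, 1⟩ * x * (⟨0, 0, 0, 1⟩ : Af)⁻¹)) ^ 9 = 1 → x.m = 0 := by decide +kernel

theorem pCore_af : Cfsg.pCore 3 Af = Af.trans := by
  haveI : Fact (Nat.Prime 3) := ⟨Nat.prime_three⟩
  refine le_antisymm (fun x hx => ?_) (CfsgLib.LocalP.le_pCore ⟨fun n hn g => Af.trans_conj g n hn⟩
    fun x => ⟨1, Subtype.ext (Af.trans_pow x.1 x.2)⟩)
  have hn : (Cfsg.pCore 3 Af).Normal := inferInstance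
  have h9 : ∀ y ∈ Cfsg.pCore 3 Af, y ^ 9 = 1 := by
    intro y hy
    obtain ⟨n, hn⟩ := CfsgLib.LocalP.isPGroup_pCore (G := Af) (p := 3) ⟨y, hy⟩
    have hn' : y ^ 3 ^ n = 1 := congrArg Subtype.val hn
    obtain ⟨j, -, hj⟩ := (Nat.dvd_prime_pow Nat.prime_three).mp (orderOf_dvd_of_pow_eq_one hn')
    have h36 : orderOf y ∣ 36 := orderOf_dvd_of_pow_eq_one (pow_thirtysix y)
    refine orderOf_dvd_iff_pow_eq_one.mp ?_
    rw [hj] at h36 ⊢
    refine (pow_dvd_pow 3 ?_).trans (by norm_num : 3 ^ 2 ∣ 9)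
    by_contra hlt
    have := (pow_dvd_pow 3 (show 3 ≤ j by omega)).trans h36
    norm_num at this
  exact three_core_key x (h9 x hx) (h9 _ (mul_mem (inv_mem hx) (hn.conj_mem x hx _)))

end CfsgLib.AltNineCube
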