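import Cfsg.Agent.AltNineCube.Classes
import Cfsg.Agent.TIThree.Setting

/-!
# An embedded `3^3 : S4` controlling fusion on the translations
-/

set_option autoImplicit false

namespace CfsgLib.AltNineCube

open scoped ComplexConjugate
open Cfsg CfsgLib.Chars Subgroup

universe u

variable {G : Type u} [Group G]

/-- An embedding with translation centralisers inside and strongly closed translations. -/
structure Emb (G : Type u) [Group G] where
  /-- the embedding -/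
  φ : Af →* G
  inj : Function.Injective φ
  cent : ∀ x : Af, x.m = 0 → x ≠ 1 → ∀ g : G, g * φ x = φ x * g → g ∈ φ.range
  closed : ∀ x y : Af, x.m = 0 → ∀ g : G, g * φ x * g⁻¹ = φ y → y.m = 0

theorem involution_cls : ∀ x : Af, x ^ 2 = 1 → x ≠ 1 → Af.cls x = 3 ∨ Af.cls x = 4 := by
  decide +kernel

theorem pow_thirtysix : ∀ x : Af, x ^ 36 = 1 := by decide +kernel

theorem cube_centralizer : ∀ y : Af, y ^ 9 = 1 →
    (y * ⟨1, 1, 0, 5⟩ = ⟨1, 1, 0, 5⟩ * y → y * ⟨0, 0, 1, 0⟩ = ⟨0, 0, 1, 0⟩ * y →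
      y = 1 ∨ y = ⟨0, 0, 1, 0⟩ ∨ y = ⟨0, 0, 2, 0⟩) ∧
    (y * ⟨0, 0, 1, 8⟩ = ⟨0, 0, 1, 8⟩ * y → y * ⟨1, 1, 0, 0⟩ = ⟨1, 1, 0, 0⟩ * y →
      y = 1 ∨ y = ⟨1, 1, 0, 0⟩ ∨ y = ⟨2, 2, 0, 0⟩) := by decide +kernel

theorem fusion_facts : (⟨0, 0, 1, 0⟩ : Af) * ⟨1, 1, 0, 5⟩ = ⟨1, 1, 0, 5⟩ * ⟨0, 0, 1, 0⟩ ∧
    (⟨1, 1, 0, 0⟩ : Af) * ⟨0, 0, 1, 8⟩ = ⟨0, 0, 1, 8⟩ * ⟨1, 1, 0, 0⟩ ∧
    Af.rep 3 = ⟨1, 1, 0, 5⟩ ∧ Af.rep 4 = ⟨0, 0, 1, 8⟩ ∧
    Af.cls ⟨0, 0, 1, 0⟩ = 1 ∧ Af.cls ⟨1, 1, 0, 0⟩ = 11 ∧ Af.cls ⟨2, 2, 0, 0⟩ = 11 := by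
  decide +kernel

namespace Emb

variable (S : Emb G)

theorem φ_ne_one {x : Af} (hx : x ≠ 1) : S.φ x ≠ 1 := fun e => hx (S.inj (by rw [e, map_one]))

/-- Centralizers of translations are inside. -/
theorem card_cent {a : Af} (ha : a.m = 0) (ha1 : a ≠ 1) :
    Nat.card {g : G // g * S.φ a = S.φ a * g} = Af.centCard a := by
  rw [Af.centCard, ← Fintype.card_subtype, ← Nat.card_eq_fintype_card]
  symm
  refine Nat.card_eq_of_bijective (fun y => ⟨S.φ y.1, by rw [← map_mul, y.2, map_mul]⟩) ⟨?_, ?_⟩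
  · intro x y e
    exact Subtype.ext (S.inj (congrArg Subtype.val e))
  · rintro ⟨g, hg⟩
    obtain ⟨y, rfl⟩ := S.cent a ha ha1 g hg
    exact ⟨⟨y, S.inj (by rw [map_mul, map_mul, hg])⟩, rfl⟩

/-- Fusion on the special classes is controlled. -/
theorem mem_range {k l : Af} (hk : Af.cls k ∈ Af.dset) {g : G} (hg : g * S.φ k * g⁻¹ = S.φ l) :
    g ∈ S.φ.range := by
  obtain ⟨hm, hne⟩ := Af.expo_spec k hk
  set a := k ^ Af.expo k with ha
  set b := l ^ Af.expo k with hb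
  have hab : g * S.φ a * g⁻¹ = S.φ b := by rw [ha, hb, map_pow, map_pow, ← hg, conj_pow]
  have hbm : b.m = 0 := S.closed a b hm g hab
  have hb1 : b ≠ 1 := fun e => by
    rw [e, map_one, conj_eq_one_iff] at hab
    exact S.φ_ne_one hne hab
  have hcard : Af.centCard a = Af.centCard b := by
    rw [← S.card_cent hm hne, ← S.card_cent hbm hb1]
    refine Nat.card_congr
      { toFun := fun y => ⟨g * y.1 * g⁻¹, ?_⟩
        invFun := fun y => ⟨g⁻¹ * y.1 * g, ?_⟩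
        left_inv := fun y => Subtype.ext (by group)
        right_inv := fun y => Subtype.ext (by group) }
    · obtain ⟨z, hz⟩ := y
      show g * z * g⁻¹ * S.φ b = S.φ b * (g * z * g⁻¹)
      rw [← hab]
      calc g * z * g⁻¹ * (g * S.φ a * g⁻¹) = g * (z * S.φ a) * g⁻¹ := by group
      _ = g * (S.φ a * z) * g⁻¹ := by rw [hz]
      _ = _ := by group
    · obtain ⟨z, hz⟩ := y
      show g⁻¹ * z * g * S.φ a = S.φ a * (g⁻¹ * z * g)
      rw [← hab] at hz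
      calc g⁻¹ * z * g * S.φ a = g⁻¹ * (z * (g * S.φ a * g⁻¹)) * g := by group
      _ = g⁻¹ * (g * S.φ a * g⁻¹ * z) * g := by rw [hz]
      _ = _ := by group
  obtain ⟨c, hc⟩ := isConj_iff.mp (Af.cls_of_centCard hm hne hbm hb1 hcard)
  have : (S.φ c)⁻¹ * g ∈ S.φ.range := S.cent a hm hne _ (by
    have e : g * S.φ a * g⁻¹ = S.φ c * S.φ a * (S.φ c)⁻¹ := by
      rw [hab, ← hc, map_mul, map_mul, map_inv]
    calc (S.φ c)⁻¹ * g * S.φ a = (S.φ c)⁻¹ * (g * S.φ a * g⁻¹) * g := by group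
    _ = (S.φ c)⁻¹ * (S.φ c * S.φ a * (S.φ c)⁻¹) * g := by rw [e]
    _ = S.φ a * ((S.φ c)⁻¹ * g) := by group)
  have h2 := mul_mem (⟨c, rfl⟩ : S.φ c ∈ S.φ.range) this
  rwa [mul_inv_cancel_left] at h2

theorem conj_iff {k l : Af} (hk : Af.cls k ∈ Af.dset) : IsConj (S.φ k) (S.φ l) ↔ IsConj k l := by
  refine ⟨fun h => ?_, fun h => MonoidHom.map_isConj S.φ h⟩
  obtain ⟨g, hg⟩ := isConj_iff.mp h
  obtain ⟨c, rfl⟩ := S.mem_range hk hg
  exact isConj_iff.mpr ⟨c, S.inj (by simpa using hg)⟩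

variable [Finite G]

/-- The Sylow 3-subgroup of the centralizer of an involution has order three. -/
theorem zpowers_of_le {i t t2 : Af} (ht : t.m = 0) (ht1 : t ≠ 1)
    (hself : ∀ y : Af, y ^ 9 = 1 → y * i = i * y → y * t = t * y → y = 1 ∨ y = t ∨ y = t2)
    (ht2 : t2 = t * t) (P : Subgroup G) (hP : IsPGroup 3 P)
    (hPi : ∀ x ∈ P, x * S.φ i = S.φ i * x) (htP : S.φ t ∈ P) :
    ∀ x ∈ P, x ∈ Subgroup.zpowers (S.φ t) := by
  haveI : Fact (Nat.Prime 3) := ⟨Nat.prime_three⟩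
  have key : ∀ x ∈ P, x * S.φ t = S.φ t * x → x ∈ Subgroup.zpowers (S.φ t) := by
    intro x hx hxt
    obtain ⟨y, rfl⟩ := S.cent t ht ht1 x hxt
    obtain ⟨n, hn⟩ := hP ⟨S.φ y, hx⟩
    have hn' : y ^ 3 ^ n = 1 := S.inj (by
      rw [map_pow, map_one]
      exact congrArg Subtype.val hn)
    have hy9 : y ^ 9 = 1 := by
      refine orderOf_dvd_iff_pow_eq_one.mp ?_
      obtain ⟨j, -, hj⟩ := (Nat.dvd_prime_pow Nat.prime_three).mp (orderOf_dvd_of_pow_eq_one hn')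
      have h36 : orderOf y ∣ 36 := orderOf_dvd_of_pow_eq_one (pow_thirtysix y)
      rw [hj] at h36 ⊢
      refine (pow_dvd_pow 3 ?_).trans (by norm_num : 3 ^ 2 ∣ 9)
      by_contra hlt
      have := (pow_dvd_pow 3 (show 3 ≤ j by omega)).trans h36
      norm_num at this
    have hmem : S.φ t ∈ Subgroup.zpowers (S.φ t) := Subgroup.mem_zpowers _
    rcases hself y hy9 (S.inj (by rw [map_mul, map_mul, hPi _ hx]))
        (S.inj (by rw [map_mul, map_mul, hxt])) with rfl | rfl | rfl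
    · rw [map_one]; exact one_mem _
    · exact hmem
    · rw [ht2, map_mul]; exact mul_mem hmem hmem
  haveI : Nontrivial P := nontrivial_of_ne ⟨S.φ t, htP⟩ 1
    (fun e => S.φ_ne_one ht1 (congrArg Subtype.val e))
  haveI := hP.center_nontrivial
  obtain ⟨z, hz⟩ := exists_ne (1 : Subgroup.center P)
  have hzc : ∀ x ∈ P, x * ((z : P) : G) = ((z : P) : G) * x := fun x hx =>
    congrArg Subtype.val (Subgroup.mem_center_iff.mp z.2 ⟨x, hx⟩)
  obtain ⟨j, hj⟩ := Subgroup.mem_zpowers_iff.mp (key _ (z : P).2 (hzc _ htP).symm)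
  have hord : orderOf (S.φ t) = 3 := orderOf_eq_prime
    (by rw [← map_pow, Af.trans_pow t ht, map_one]) (S.φ_ne_one ht1)
  have hj3 : ¬ (3 : ℤ) ∣ j := by
    rintro ⟨q, rfl⟩
    refine hz (Subtype.ext (Subtype.ext ?_))
    rw [← hj, zpow_mul, zpow_ofNat, ← map_pow, Af.trans_pow t ht, map_one, one_zpow]
    rfl
  have hgen : S.φ t ∈ Subgroup.zpowers ((z : P) : G) := by
    have hco : IsCoprime j 3 := by
      rw [Int.isCoprime_iff_nat_coprime, Nat.coprime_comm,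
        show Int.natAbs 3 = 3 from rfl, Nat.prime_three.coprime_iff_not_dvd]
      exact fun h => hj3 (Int.natCast_dvd.mpr h)
    obtain ⟨a, b, hab⟩ := hco
    refine Subgroup.mem_zpowers_iff.mpr ⟨a, ?_⟩
    calc ((z : P) : G) ^ a = S.φ t ^ (j * a + 3 * b) := by
          rw [← hj, ← zpow_mul, zpow_add, zpow_mul (S.φ t) 3 b, zpow_ofNat, ← map_pow,
            Af.trans_pow t ht, map_one, one_zpow, mul_one]
    _ = S.φ t := by rw [show j * a + 3 * b = 1 by linarith, zpow_one]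
  intro x hx
  refine key x hx ?_
  obtain ⟨a, ha⟩ := Subgroup.mem_zpowers_iff.mp hgen
  rw [← ha]
  exact (show Commute x ((z : P) : G) from hzc x hx).zpow_right a

/-- The two classes of involutions are not fused. -/
theorem not_fused : ¬ IsConj (S.φ (Af.rep 3)) (S.φ (Af.rep 4)) := by
  haveI : Fact (Nat.Prime 3) := ⟨Nat.prime_three⟩
  obtain ⟨f1, f2, r3, r4, c1, c11, c11'⟩ := fusion_facts
  rw [r3, r4]
  intro h
  obtain ⟨g, hg⟩ := isConj_iff.mp h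
  set i : Af := ⟨1, 1, 0, 5⟩
  set r : Af := ⟨0, 0, 1, 8⟩
  set t : Af := ⟨0, 0, 1, 0⟩ with ht
  set v : Af := ⟨1, 1, 0, 0⟩ with hv
  set C : Subgroup G := Subgroup.centralizer ({S.φ r} : Set G)
  have hC : ∀ x, x ∈ C ↔ x * S.φ r = S.φ r * x := fun x =>
    Subgroup.mem_centralizer_singleton_iff
  have hgt : g * S.φ t * g⁻¹ ∈ C := by
    rw [hC, ← hg]
    calc g * S.φ t * g⁻¹ * (g * S.φ i * g⁻¹) = g * S.φ (t * i) * g⁻¹ := by rw [map_mul]; group
    _ = g * S.φ (i * t) * g⁻¹ := by rw [f1]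
    _ = _ := by rw [map_mul]; group
  have hvC : S.φ v ∈ C := by rw [hC, ← map_mul, f2, map_mul]
  have hP : ∀ x : G, x ^ 3 = 1 → IsPGroup 3 (Subgroup.zpowers x) := by
    intro x hx ⟨y, hy⟩
    obtain ⟨j, rfl⟩ := Subgroup.mem_zpowers_iff.mp hy
    refine ⟨1, Subtype.ext ?_⟩
    show (x ^ j) ^ (3 ^ 1) = 1
    rw [pow_one, ← zpow_natCast (x ^ j), ← zpow_mul, mul_comm, zpow_mul, zpow_natCast, hx, one_zpow]
  obtain ⟨Q1, hQ1⟩ := ((hP (g * S.φ t * g⁻¹) (by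
    rw [conj_pow, ← map_pow, Af.trans_pow t rfl, map_one, mul_one, mul_inv_cancel])).comap_of_injective
      C.subtype Subtype.val_injective).exists_le_sylow
  obtain ⟨Q2, hQ2⟩ := ((hP (S.φ v) (by
    rw [← map_pow, Af.trans_pow v rfl, map_one])).comap_of_injective
      C.subtype Subtype.val_injective).exists_le_sylow
  obtain ⟨c, hc⟩ := MulAction.exists_smul_eq C Q1 Q2
  have h1 : c * ⟨_, hgt⟩ * c⁻¹ ∈ (c • Q1 : Sylow 3 C).toSubgroup :=
    Subgroup.smul_mem_pointwise_smul _ (MulAut.conj c) _ (hQ1 (Subgroup.mem_zpowers _))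
  rw [hc] at h1
  have h2 := S.zpowers_of_le (i := r) (t := v) (t2 := ⟨2, 2, 0, 0⟩) rfl (by decide)
    (fun y hy => (cube_centralizer y hy).2) (by decide) ((Q2 : Subgroup C).map C.subtype)
    (Q2.isPGroup'.map _) (by rintro _ ⟨x, -, rfl⟩; exact (hC _).mp x.2)
    ⟨⟨S.φ v, hvC⟩, hQ2 (Subgroup.mem_zpowers _), rfl⟩ _ ⟨_, h1, rfl⟩
  obtain ⟨j, hj⟩ := Subgroup.mem_zpowers_iff.mp h2
  have e : ((c : G) * g) * S.φ t * ((c : G) * g)⁻¹ = S.φ (v ^ j) := by
    rw [map_zpow, hj]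
    simp [mul_assoc]
  have hcl := Af.cls_eq_of_conj ((S.conj_iff (by rw [c1]; decide)).mp (isConj_iff.mpr ⟨_, e⟩))
  rw [c1] at hcl
  have key : ∀ n : ℕ, n < 3 → Af.cls (v ^ n) ≠ 1 := by decide +kernel
  refine key (j % 3).toNat (by omega) ?_
  rw [← zpow_natCast, Int.toNat_of_nonneg (Int.emod_nonneg j (by norm_num))]
  rw [show v ^ (j % 3) = v ^ j by
    conv_rhs => rw [← Int.emod_add_mul_ediv j 3, zpow_add, zpow_mul,
      show v ^ (3 : ℤ) = 1 by rw [show (3 : ℤ) = ((3 : ℕ) : ℤ) from rfl, zpow_natCast]; decide,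
      one_zpow, mul_one]]
  exact hcl.symm

/-- Conjugates of the involutions of the two classes. -/
theorem conj_involution {c : Fin 14} (hc : c = 3 ∨ c = 4) {x : Af} :
    IsConj (S.φ (Af.rep c)) (S.φ x) ↔ Af.cls x = c := by
  constructor
  · intro h
    obtain ⟨g, hg⟩ := isConj_iff.mp h
    have h2 : Af.rep c ^ 2 = 1 ∧ Af.rep c ≠ 1 := by
      rcases hc with rfl | rfl <;> decide
    have hx2 : x ^ 2 = 1 := S.inj (by
      rw [map_pow, ← hg, conj_pow, ← map_pow, h2.1, map_one, mul_one, mul_inv_cancel])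
    have hx1 : x ≠ 1 := fun e => by
      rw [e, map_one, conj_eq_one_iff] at hg
      exact S.φ_ne_one h2.2 hg
    rcases involution_cls x hx2 hx1 with e | e <;> rcases hc with rfl | rfl
    · exact e
    · exact absurd (h.trans (MonoidHom.map_isConj S.φ (Af.conj_of_cls_eq (x := x) (y := Af.rep 3)
        (by simp [e]) (by rw [e, Af.cls_rep])))).symm S.not_fused
    · exact absurd (h.trans (MonoidHom.map_isConj S.φ (Af.conj_of_cls_eq (x := x) (y := Af.rep 4)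
        (by simp [e]) (by rw [e, Af.cls_rep])))) S.not_fused
    · exact e
  · intro h
    exact MonoidHom.map_isConj S.φ (Af.conj_of_cls_eq (x := Af.rep c) (y := x)
      (by rw [Af.cls_rep]; rcases hc with rfl | rfl <;> simp) (by rw [Af.cls_rep, h]))

end Emb

end CfsgLib.AltNineCube
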